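import Cfsg.Agent.LE.J2U.Rel
import Cfsg.Agent.CosetEnum.Level

/-!
# Uniqueness of the Hall–Janko group, IV: the presentation (owner: helper80)
-/
set_option autoImplicit false
set_option linter.all false

namespace Cfsg.Agent.LE.J2U

open Subgroup Cfsg.Agent.H90 Equiv Cfsg.Agent.CosetEnum

variable {G : Type*} [Group G]

/-- `c` induces the unsigned permutation `σ` on the points -/
def A0 (z : G) (T : Fin 5 → G) (c : G) (σ : Perm (Fin 5)) : Prop := c * z = z * c ∧ Act z T c σ 0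

/-- the letters -/
def gg (f y k z a e d s : G) : ℕ → G
  | 1 => f | 2 => y | 3 => y⁻¹ | 4 => k | 5 => k⁻¹ | 6 => z | 7 => a | 8 => e | 9 => d | 10 => d⁻¹ | 11 => s
  | _ => 1

/-- the basic relators -/
def baseRL : List (List ℕ × ℕ) := [([2, 2, 2], 1), ([4, 4, 4], 1), ([1, 2], 3), ([1, 3, 5], 2), ([1, 3, 5, 3], 2),
  ([6, 1], 2), ([6, 2, 6, 3], 1), ([6, 7], 2), ([6, 8], 2), ([6, 4, 6, 5], 1), ([7, 2, 7, 3], 1), ([5, 7, 4, 8], 1),
  ([8, 1], 2), ([8, 2, 8, 3], 1), ([7, 2, 1, 3, 4, 7, 5, 2, 1, 3], 1),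
  ([1, 7, 1, 3, 1, 2, 7, 3, 1, 2, 2, 1, 3, 7, 2, 1, 3, 7, 8], 1), ([1, 7, 1, 7, 1, 7, 1, 7, 6], 1), ([9, 9, 9], 1),
  ([10, 6, 9, 8], 1), ([10, 8, 9, 8, 6], 1), ([11, 9], 2), ([6, 11], 3), ([6, 9], 3), ([9, 1, 10, 1], 1),
  ([9, 2, 10, 3], 1), ([11, 1], 2), ([11, 2, 11, 3], 1), ([11, 7], 3)]

def iv : List (ℕ × ℕ) := [(2, 3), (4, 5), (9, 10)]

theorem perm_facts : (pf * py⁻¹ * pk⁻¹ ≠ 1 ∧ (pf * py⁻¹ * pk⁻¹) * (pf * py⁻¹ * pk⁻¹) = 1) ∧
    (pf * py⁻¹ * pk⁻¹ * py⁻¹ ≠ 1 ∧ (pf * py⁻¹ * pk⁻¹ * py⁻¹) * (pf * py⁻¹ * pk⁻¹ * py⁻¹) = 1) ∧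
    (pf * py⁻¹ * pk⁻¹ * py⁻¹) 3 = 4 ∧ (pf * py⁻¹ * pk⁻¹ * py⁻¹) 4 = 3 ∧
    (pf * py⁻¹ * pk⁻¹ * py⁻¹) * py * (pf * py⁻¹ * pk⁻¹ * py⁻¹) = py⁻¹ ∧ (py * pf * py⁻¹ * pk) 3 = 3 ∧
    pk * pk * pk = 1 ∧ pk ∈ alternatingGroup (Fin 5) := by
  refine ⟨⟨?_, ?_⟩, ⟨?_, ?_⟩, ?_, ?_, ?_, ?_, ?_, Equiv.Perm.mem_alternatingGroup.mpr ?_⟩ <;> decide

section

variable [Finite G] {Q : Subgroup G} {z : G} {T : Fin 5 → G} (B : Base Q z T)
include B

theorem A0.mul {c d : G} {σ τ : Perm (Fin 5)} (h1 : A0 z T c σ) (h2 : A0 z T d τ) : A0 z T (c * d) (σ * τ) := by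
  refine ⟨by rw [mul_assoc, h2.1, ← mul_assoc, h1.1, mul_assoc], ?_⟩
  have := act_mul B.pl h1.1 h1.2 h2.2
  intro i
  rw [this i]
  simp

theorem A0.inv {c : G} {σ : Perm (Fin 5)} (h1 : A0 z T c σ) : A0 z T c⁻¹ σ⁻¹ := by
  refine ⟨by rw [inv_mul_eq_iff_eq_mul, ← mul_assoc, h1.1]; group, ?_⟩
  have := act_inv B.pl h1.1 h1.2
  intro i
  rw [this i]
  simp

theorem A0.one : A0 z T 1 1 := ⟨by simp, act_one B.pl⟩

theorem A0.ext {c d : G} {σ : Perm (Fin 5)} (h1 : A0 z T c σ) (h2 : A0 z T d σ) : c = d ∨ c = z * d := by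
  obtain ⟨b, hb⟩ := B.ext h1.1 h2.1 h1.2 h2.2
  rcases zp_cases (z := z) b with ⟨_, h3⟩ | ⟨_, h3⟩
  · left; rw [hb, h3, one_mul]
  · right; rw [hb, h3]

theorem A0.conj {c : G} {σ : Perm (Fin 5)} (h1 : A0 z T c σ) (i : Fin 5) : c * T i * c⁻¹ = T (σ i) := by
  have := h1.2 i
  simpa [zp_zero] using this

theorem A0.not_mem {c : G} {σ : Perm (Fin 5)} (h1 : A0 z T c σ) (hσ : σ ≠ 1) : c ∉ Q := by
  intro hc
  obtain ⟨s, _, hs⟩ := act_q B.pl B.pts B.cardQ hc
  exact hσ (act_unique B.pl B.pts h1.2 hs).1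

theorem A0.invol {v : G} (vz : v * z = z * v) (vQ : v ∉ Q) (vv : v * v = 1) {c : G} {σ : Perm (Fin 5)}
    (h1 : A0 z T c σ) (hσ : σ ≠ 1) (hσ2 : σ * σ = 1) : c * c = 1 := by
  have h2 := A0.mul B h1 h1
  rw [hσ2] at h2
  refine B.sq_eq_one vz vQ vv h1.1 (A0.not_mem B h1 hσ) ?_
  rcases A0.ext B h2 (A0.one B) with h3 | h3
  · exact Or.inl h3
  · exact Or.inr (by rw [h3, mul_one])

/-- an element of order 3 inducing a given permutation of order 3 -/
theorem A0.exists_three {σ : Perm (Fin 5)} (hσ : σ ∈ alternatingGroup (Fin 5)) (hσ3 : σ * σ * σ = 1) :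
    ∃ k, A0 z T k σ ∧ k * k * k = 1 := by
  obtain ⟨c, hcz, hact⟩ := B.exists_act hσ (s := 0) (by simp)
  have h1 : A0 z T c σ := ⟨hcz, hact⟩
  have h2 := A0.mul B (A0.mul B h1 h1) h1
  rw [hσ3] at h2
  have zz := B.pl.sq
  rcases A0.ext B h2 (A0.one B) with h3 | h3
  · exact ⟨c, h1, h3⟩
  · rw [mul_one] at h3
    refine ⟨z * c, ⟨by rw [mul_assoc, hcz], ?_⟩, ?_⟩
    · have := act_zp_mul B.pl B.pts 1 hact
      rw [zp_one] at this
      exact this
    · have e : ∀ w, c * (z * w) = z * (c * w) := fun w => by rw [← mul_assoc, hcz, mul_assoc]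
      have zz' : ∀ w, z * (z * w) = w := fun w => by rw [← mul_assoc, zz, one_mul]
      have h4 : z * c * (z * c) * (z * c) = z * (c * c * c) := by
        simp only [mul_assoc, e, zz']
      rw [h4, h3, zz]

/-- equality of two elements of order 3 -/
theorem A0.eq_three {c d : G} {σ : Perm (Fin 5)} (h1 : A0 z T c σ) (h2 : A0 z T d σ) (hc : c * c * c = 1)
    (hd : d * d * d = 1) : c = d := by
  rcases A0.ext B h1 h2 with h3 | h3
  · exact h3
  · exfalso
    have zz := B.pl.sq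
    have e : ∀ w, d * (z * w) = z * (d * w) := fun w => by rw [← mul_assoc, h2.1, mul_assoc]
    have zz' : ∀ w, z * (z * w) = w := fun w => by rw [← mul_assoc, zz, one_mul]
    have h4 : z * d * (z * d) * (z * d) = z * (d * d * d) := by
      simp only [mul_assoc, e, zz']
    rw [← h3, hc, hd, mul_one] at h4
    exact B.pl.ne_one h4.symm

end

/-- the equations behind the basic relators -/
structure Eqs (f y k z a e d s : G) : Prop where
  ff : f * f = 1
  zz : z * z = 1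
  aa : a * a = 1
  ee : e * e = 1
  yyy : y * y * y = 1
  kkk : k * k * k = 1
  fy3 : (f * y) * (f * y) * (f * y) = 1
  fYK : (f * y⁻¹ * k⁻¹) * (f * y⁻¹ * k⁻¹) = 1
  fYKY : (f * y⁻¹ * k⁻¹ * y⁻¹) * (f * y⁻¹ * k⁻¹ * y⁻¹) = 1
  fz : f * z = z * f
  yz : y * z = z * y
  kz : k * z = z * k
  az : a * z = z * a
  ez : e * z = z * e
  ya : y * a = a * y
  ake : k * e = a * k
  fe : f * e = e * f
  ye : y * e = e * y
  u : (y * f * y⁻¹ * k) * a = a * (y * f * y⁻¹ * k)
  T : f * a * f * ((y⁻¹ * f * y) * a * (y⁻¹ * f * y)) * ((y * f * y⁻¹) * a * (y * f * y⁻¹)) * a * e = 1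
  T3 : (f * a * f) * a * ((f * a * f) * a) = z
  D : DS z e d s
  fd : f * d = d * f
  yd : y * d = d * y
  fs : f * s = s * f
  ys : y * s = s * y
  sa : (s * a) * (s * a) * (s * a) = 1

theorem cc1 {u v : G} (h : v * u = u * v) (uu : u * u = 1) (vv : v * v = 1) : u * v * (u * v) = 1 := by
  calc u * v * (u * v) = u * (v * u) * v := by group
    _ = (u * u) * (v * v) := by rw [h]; group
    _ = 1 := by rw [uu, vv, one_mul]

theorem cc2 {u y : G} (h : y * u = u * y) (uu : u * u = 1) : u * (y * (u * y⁻¹)) = 1 := by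
  calc u * (y * (u * y⁻¹)) = u * (y * u) * y⁻¹ := by group
    _ = u * u := by rw [h]; group
    _ = 1 := uu

theorem Eqs.good {f y k z a e d s : G} (E : Eqs f y k z a e d s) {p q : List ℕ}
    (hp : (p.map (gg f y k z a e d s)).prod = 1) (hq : (q.map (gg f y k z a e d s)).prod = 1) :
    Good (gg f y k z a e d s) 11 iv (baseRL ++ [(p, 1), (q, 1)]) := by
  have fi : f⁻¹ = f := inv_eq_of_mul_eq_one_left E.ff
  have zi : z⁻¹ = z := inv_eq_of_mul_eq_one_left E.zz
  have ai : a⁻¹ = a := inv_eq_of_mul_eq_one_left E.aa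
  have ei : e⁻¹ = e := inv_eq_of_mul_eq_one_left E.ee
  have si : s⁻¹ = s := inv_eq_of_mul_eq_one_left E.D.ss
  refine ⟨?_, ?_, ?_⟩
  · intro x
    match x with
    | 0 => simp [iv, ivL, gg]
    | 1 => simp [iv, ivL, gg, fi]
    | 2 => simp [iv, ivL, gg]
    | 3 => simp [iv, ivL, gg]
    | 4 => simp [iv, ivL, gg]
    | 5 => simp [iv, ivL, gg]
    | 6 => simp [iv, ivL, gg, zi]
    | 7 => simp [iv, ivL, gg, ai]
    | 8 => simp [iv, ivL, gg, ei]
    | 9 => simp [iv, ivL, gg]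
    | 10 => simp [iv, ivL, gg]
    | 11 => simp [iv, ivL, gg, si]
    | (n + 12) => simp [iv, ivL, gg]
  · intro x hx
    match x with
    | 0 => rfl
    | 1 | 2 | 3 | 4 | 5 | 6 | 7 | 8 | 9 | 10 | 11 => exact absurd hx (by decide)
    | (n + 12) => rfl
  · intro r hr
    rw [List.mem_append] at hr
    rcases hr with hr | hr
    · simp only [baseRL, List.mem_cons, List.not_mem_nil, or_false] at hr
      rcases hr with rfl | rfl | rfl | rfl | rfl | rfl | rfl | rfl | rfl | rfl | rfl | rfl | rfl | rfl | rfl | rfl |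
        rfl | rfl | rfl | rfl | rfl | rfl | rfl | rfl | rfl | rfl | rfl | rfl <;>
      simp only [List.map_cons, List.map_nil, List.prod_cons, List.prod_nil, mul_one, pow_succ, pow_zero, one_mul, gg]
      · rw [← mul_assoc]; exact E.yyy
      · rw [← mul_assoc]; exact E.kkk
      · exact E.fy3
      · rw [← mul_assoc f]; exact E.fYK
      · have := E.fYKY
        simp only [mul_assoc] at this ⊢; exact this
      · exact cc1 E.fz E.zz E.ff
      · exact cc2 E.yz E.zz
      · exact cc1 E.az E.zz E.aa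
      · exact cc1 E.ez E.zz E.ee
      · exact cc2 E.kz E.zz
      · exact cc2 E.ya E.aa
      · rw [E.ake, ← mul_assoc a, E.aa]; group
      · exact cc1 E.fe E.ee E.ff
      · exact cc2 E.ye E.ee
      · have h1 : k⁻¹ * (y * (f * y⁻¹)) = (y * f * y⁻¹ * k)⁻¹ := by
          simp only [mul_inv_rev, fi, inv_inv, mul_assoc]
        rw [h1]
        calc a * (y * (f * (y⁻¹ * (k * (a * (y * f * y⁻¹ * k)⁻¹))))) = a * ((y * f * y⁻¹ * k) * a) * (y * f * y⁻¹ * k)⁻¹ := by
              group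
          _ = a * a := by rw [E.u]; group
          _ = 1 := E.aa
      · have := E.T
        simp only [mul_assoc] at this ⊢; exact this
      · have := E.T3
        have h1 : (f * a * f) * a * ((f * a * f) * a) * z = 1 := by rw [this, E.zz]
        simp only [mul_assoc] at h1 ⊢; exact h1
      · rw [← mul_assoc]; exact E.D.ddd
      · rw [← E.D.dz, ← mul_assoc z, E.zz]; group
      · calc d⁻¹ * (e * (d * (e * z))) = d⁻¹ * (e * d) * (e * z) := by group
          _ = z * (e * e) * z := by rw [E.D.de]; group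
          _ = 1 := by rw [E.ee, mul_one, E.zz]
      · exact E.D.sd
      · exact E.D.zs
      · exact E.D.zd
      · calc d * (f * (d⁻¹ * f)) = (d * f) * d⁻¹ * f := by group
          _ = f * f := by rw [← E.fd]; group
          _ = 1 := E.ff
      · calc d * (y * (d⁻¹ * y⁻¹)) = (d * y) * d⁻¹ * y⁻¹ := by group
          _ = 1 := by rw [← E.yd]; group
      · exact cc1 E.fs E.D.ss E.ff
      · exact cc2 E.ys E.D.ss
      · exact E.sa
    · simp only [List.mem_cons, List.not_mem_nil, or_false] at hr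
      rcases hr with rfl | rfl
      · simpa using hp
      · simpa using hq

/-- all relations, up to a finite number of possibilities -/
structure Rels (f y k z a e d s : G) (j i : ℕ) (w : G) : Prop where
  E : Eqs f y k z a e d s
  hj : j = 1 ∨ j = 2
  hi : i = 0 ∨ i = 1 ∨ i = 2
  hw : w = 1 ∨ w = z ∨ w = a ∨ w = z * a
  da : (d * a) * (d * a) = y ^ j
  wd : (f * y⁻¹ * k⁻¹ * y⁻¹) * d * (f * y⁻¹ * k⁻¹ * y⁻¹) = w * y ^ i * (e * s * z * a * s)
  ez : e ≠ z

theorem Ctx.exists_rels [Finite G] {Q : Subgroup G} {z v : G} {x : Fin 5 → G} {E L K : Subgroup G} {f y a : G}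
    (c : Ctx Q z x v E L K f y a) : ∃ (k e d s : G) (j i : ℕ) (w : G), Rels f y k z a e d s j i w := by
  obtain ⟨d, hd, s, hs, D, j, hj, hda⟩ := c.exists_ds
  have hj' : j = 1 ∨ j = 2 := by
    have : j ≠ 0 := by
      rintro rfl
      exact c.j_ne hd D (by rw [hda, pow_zero])
    omega
  have sa := c.sa3 hd hs D hj' hda
  have B := c.B
  obtain ⟨e, he⟩ : ∃ e, e = tp a f y 4 := ⟨_, rfl⟩
  have ha : tp a f y 3 = a := by simp [tp]
  have Af : A0 z (tp a f y) f pf := ⟨c.F.fz, c.F.actf⟩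
  have Ay : A0 z (tp a f y) y py := ⟨c.F.yz, c.F.acty⟩
  obtain ⟨pa, pb, p34, p43, pyy, pu, pk3, pkm⟩ := perm_facts
  obtain ⟨k, Ak, hk3⟩ := A0.exists_three B pkm pk3
  have A1 : A0 z (tp a f y) (f * y⁻¹ * k⁻¹) (pf * py⁻¹ * pk⁻¹) := A0.mul B (A0.mul B Af (A0.inv B Ay)) (A0.inv B Ak)
  have AW : A0 z (tp a f y) (f * y⁻¹ * k⁻¹ * y⁻¹) (pf * py⁻¹ * pk⁻¹ * py⁻¹) := A0.mul B A1 (A0.inv B Ay)
  have hV := A0.invol B c.S.vz c.S.vQ c.S.vv A1 pa.1 pa.2
  have hWW := A0.invol B c.S.vz c.S.vQ c.S.vv AW pb.1 pb.2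
  have hya : y * a = a * y := c.F.ya
  have hye : y * e = e * y := by rw [he]; exact c.y_e
  have hfe : f * e = e * f := by rw [he]; exact c.f_e
  have hyd : y * d = d * y := c.yL hd
  have hys : y * s = s * y := c.yL hs
  have ff := c.F.fy.ff
  have aa := c.F.aa
  have ss := D.ss
  have zz := c.F.zz
  have fi : f⁻¹ = f := inv_eq_of_mul_eq_one_left ff
  rw [← he] at D
  have hez : e * z = z * e := by rw [he]; exact c.e_z
  have hae : a * e = z * (e * a) := by rw [he]; exact c.a_e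
  have ee : e * e = 1 := by rw [he]; exact c.e_e
  have hake : k * e = a * k := by
    have := A0.conj B Ak 4
    rw [pk_spec.1, ha, ← he, mul_inv_eq_iff_eq_mul] at this
    exact this
  have hu : (y * f * y⁻¹ * k) * a = a * (y * f * y⁻¹ * k) := by
    have A2 : A0 z (tp a f y) (y * f * y⁻¹ * k) (py * pf * py⁻¹ * pk) :=
      A0.mul B (A0.mul B (A0.mul B Ay Af) (A0.inv B Ay)) Ak
    have := A0.conj B A2 3
    rw [pu, ha, mul_inv_eq_iff_eq_mul] at this
    exact this
  have hfy3 : (f * y) * (f * y) * (f * y) = 1 := by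
    have h1 := c.F.fy.rel
    have h2 := c.F.fy.comm
    have yyy := c.F.fy.yyy
    have yi : y⁻¹ = y * y := c.F.yi
    calc (f * y) * (f * y) * (f * y) = f * (y * f * y⁻¹) * (y * y * f * y) := by group
      _ = f * (f * (y⁻¹ * f * y)) * (y⁻¹ * f * y) := by rw [← h1, ← yi]
      _ = (f * f) * (y⁻¹ * (f * f) * y) := by group
      _ = 1 := by rw [ff]; group
  have hTT : f * a * f * ((y⁻¹ * f * y) * a * (y⁻¹ * f * y)) * ((y * f * y⁻¹) * a * (y * f * y⁻¹)) * a * e = 1 := by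
    have h0 : f * a * f = tp a f y 0 := by simp [tp]
    have h1 := Four.t4_eq (a := a) (f := f) (y := y)
    rw [ha] at h1
    rw [← c.F.t1_eq, ← c.F.t2_eq, h0, ← h1, ← he]
    exact ee
  have hT3 : (f * a * f) * a * ((f * a * f) * a) = z := by
    have h0 : f * a * f = tp a f y 0 := by simp [tp]
    have h1 := B.pts.anti 0 3 (by decide)
    rw [ha] at h1
    rw [h0]
    calc tp a f y 0 * a * (tp a f y 0 * a) = (z * (a * tp a f y 0)) * (tp a f y 0 * a) := by rw [h1]
      _ = z * a * (tp a f y 0 * tp a f y 0) * a := by group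
      _ = z * (a * a) := by rw [c.F.sq0]; group
      _ = z := by rw [aa, mul_one]
  have E : Eqs f y k z a e d s :=
    { ff := ff, zz := zz, aa := aa, ee := ee, yyy := c.F.fy.yyy, kkk := hk3, fy3 := hfy3, fYK := hV, fYKY := hWW,
      fz := c.F.fz, yz := c.F.yz, kz := Ak.1, az := c.F.az, ez := hez, ya := hya, ake := hake, fe := hfe, ye := hye,
      u := hu, T := hTT, T3 := hT3, D := D, fd := c.fL hd, yd := hyd, fs := c.fL hs, ys := hys, sa := sa }
  -- the last relation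
  obtain ⟨W, hW⟩ : ∃ W, W = f * y⁻¹ * k⁻¹ * y⁻¹ := ⟨_, rfl⟩
  rw [← hW] at AW hWW
  have Wi : W⁻¹ = W := inv_eq_of_mul_eq_one_left hWW
  have hWa : W * a = e * W := by
    have := A0.conj B AW 3
    rw [p34, ha, ← he, mul_inv_eq_iff_eq_mul] at this
    exact this
  have hWe : W * e = a * W := by
    have := A0.conj B AW 4
    rw [p43, ha, ← he, mul_inv_eq_iff_eq_mul] at this
    exact this
  have hWz : W * z = z * W := AW.1
  have hWy : W * y * W = y⁻¹ := by
    have A3 : A0 z (tp a f y) (W * y * W) py⁻¹ := by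
      have := A0.mul B (A0.mul B AW Ay) AW
      rw [pyy] at this
      exact this
    refine A0.eq_three B A3 (A0.inv B Ay) ?_ ?_
    · calc W * y * W * (W * y * W) * (W * y * W) = W * y * (W * W) * y * (W * W) * y * W := by group
        _ = W * (y * y * y) * W := by rw [hWW]; group
        _ = 1 := by rw [c.F.fy.yyy, mul_one, hWW]
    · rw [← mul_inv_rev, ← mul_inv_rev, ← mul_assoc, c.F.fy.yyy, inv_one]
  have hWy' : W * y = y⁻¹ * W := by rw [← hWy, mul_assoc, hWW, mul_one]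
  have hWyi : W * y⁻¹ = y * W := by
    rw [← hWy]
    calc W * (W * y * W) = (W * W) * y * W := by group
      _ = y * W := by rw [hWW, one_mul]
  obtain ⟨g, hg⟩ : ∃ g, g = W * d * W := ⟨_, rfl⟩
  have hyid : y⁻¹ * d = d * y⁻¹ := (show Commute y d from hyd).inv_left
  have gy : g * y = y * g := by
    calc g * y = W * d * (W * y) := by rw [hg, mul_assoc]
      _ = W * (d * y⁻¹) * W := by rw [hWy']; group
      _ = (W * y⁻¹) * d * W := by rw [← hyid]; group
      _ = y * g := by rw [hWyi, hg]; group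
  have zg : z * g = g * a := by
    calc z * g = (z * W) * d * W := by rw [hg]; group
      _ = W * (z * d) * W := by rw [← hWz]; group
      _ = W * d * (e * W) := by rw [D.dz]; group
      _ = g * a := by rw [← hWa, hg]; group
  have ag : a * g = g * (z * a) := by
    calc a * g = (a * W) * d * W := by rw [hg]; group
      _ = W * (e * d) * W := by rw [← hWe]; group
      _ = W * d * z * (e * W) := by rw [D.de]; group
      _ = W * d * (z * W) * a := by rw [← hWa]; group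
      _ = g * (z * a) := by rw [← hWz, hg]; group
  obtain ⟨h0, hh0⟩ : ∃ h0, h0 = e * s * z * a * s := ⟨_, rfl⟩
  have haz : a * z = z * a := c.F.az
  have zsz : z * s * z = s * z * s := by
    have h1 := D.zs
    have si : s⁻¹ = s := inv_eq_of_mul_eq_one_left ss
    have zi : z⁻¹ = z := inv_eq_of_mul_eq_one_left zz
    calc z * s * z = (z * s * (z * s) * (z * s)) * (s⁻¹ * z⁻¹ * s⁻¹) := by group
      _ = s * z * s := by rw [h1, si, zi, one_mul]
  have sas : s * a * s = a * s * a := by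
    have si : s⁻¹ = s := inv_eq_of_mul_eq_one_left ss
    have ai : a⁻¹ = a := inv_eq_of_mul_eq_one_left aa
    calc s * a * s = (s * a * (s * a) * (s * a)) * (a⁻¹ * s⁻¹ * a⁻¹) := by group
      _ = a * s * a := by rw [sa, si, ai, one_mul]
  have zh : z * h0 = h0 * a := by
    calc z * h0 = (z * e) * s * z * a * s := by rw [hh0]; group
      _ = e * (z * s * z) * a * s := by rw [← hez]; group
      _ = e * s * z * (s * a * s) := by rw [zsz]; group
      _ = h0 * a := by rw [sas, hh0]; group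
  have ah : a * h0 = h0 * (z * a) := by
    have h1 : z * s * a * z * s = s * a * z * s * a := by
      calc z * s * a * z * s = z * s * (a * z) * s := by group
        _ = (z * s * z) * a * s := by rw [haz]; group
        _ = s * z * (s * a * s) := by rw [zsz]; group
        _ = s * (z * a) * s * a := by rw [sas]; group
        _ = s * a * z * s * a := by rw [← haz]; group
    calc a * h0 = (a * e) * s * z * a * s := by rw [hh0]; group
      _ = (z * e) * a * s * (z * a) * s := by rw [hae]; group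
      _ = e * (z * a) * s * (z * a) * s := by rw [← hez]; group
      _ = e * (a * z) * s * (a * z) * s := by rw [haz]
      _ = e * a * (z * s * a * z * s) := by group
      _ = e * (a * s * a) * z * s * a := by rw [h1]; group
      _ = e * s * a * (s * z * s) * a := by rw [← sas]; group
      _ = e * s * (a * z) * s * z * a := by rw [← zsz]; group
      _ = h0 * (z * a) := by rw [haz, hh0]; group
  have hyz : y * z = z * y := c.F.yz
  have hy : y * h0 = h0 * y := by
    rw [hh0]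
    exact ((((show Commute y e from hye).mul_right hys).mul_right hyz).mul_right hya).mul_right hys
  obtain ⟨m, hm⟩ : ∃ m, m = g * h0⁻¹ := ⟨_, rfl⟩
  have h3 : h0⁻¹ * z = a * h0⁻¹ := by
    rw [inv_mul_eq_iff_eq_mul, ← mul_assoc, ← zh]; group
  have h4 : z * a = h0⁻¹ * a * h0 := by rw [mul_assoc, ah]; group
  have mz : m * z = z * m := by
    rw [hm, mul_assoc, h3, ← mul_assoc, ← zg, mul_assoc]
  have ma : m * a = a * m := by
    have : a * m = m * a := by
      rw [hm, ← mul_assoc, ag, h4]; group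
    exact this.symm
  have my : m * y = y * m := by
    have h5 : Commute y h0⁻¹ := (show Commute y h0 from hy).inv_right
    have h6 : Commute y g := gy.symm
    rw [hm]
    exact (h6.mul_right h5).symm
  obtain ⟨w, hw, i, hi, hmw⟩ := c.cent_form (r := 3) (Or.inl rfl) mz my (by rw [ha]; exact ma)
  rw [ha] at hw
  refine ⟨k, e, d, s, j, i, w, E, hj', by omega, hw, hda, ?_, by rw [he]; exact c.ez⟩
  rw [← hW, ← hg, ← hh0, ← hmw, hm]; group

end Cfsg.Agent.LE.J2U
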