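import Cfsg.Agent.LE.J2U.Pts

/-!
# Uniqueness of the Hall–Janko group, II: choice of the points (owner: helper80)
-/
set_option autoImplicit false
set_option linter.all false

namespace Cfsg.Agent.LE.J2U

open Subgroup Cfsg.Agent.H90 Equiv

variable {G : Type*} [Group G]

theorem fy_of {K : Subgroup G} (eK : Nonempty (K ≃* alternatingGroup (Fin 4))) {f y : G} (hf : f ∈ K) (hy : y ∈ K)
    (ff : f * f = 1) (f1 : f ≠ 1) (yyy : y * y * y = 1) (y1 : y ≠ 1) : FY f y := by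
  obtain ⟨e⟩ := eK
  have hinj : ∀ u v : K, (((e u : alternatingGroup (Fin 4)) : Perm (Fin 4)) = ((e v : alternatingGroup (Fin 4)) : Perm (Fin 4))) → u = v :=
    fun u v h => e.injective (Subtype.ext h)
  have hmul : ∀ u v : K, ((e (u * v) : alternatingGroup (Fin 4)) : Perm (Fin 4)) = (e u : Perm (Fin 4)) * (e v : Perm (Fin 4)) :=
    fun u v => by rw [map_mul]; rfl
  have hinv : ∀ u : K, ((e (u⁻¹) : alternatingGroup (Fin 4)) : Perm (Fin 4)) = (e u : Perm (Fin 4))⁻¹ :=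
    fun u => by rw [map_inv]; rfl
  have hone : ((e 1 : alternatingGroup (Fin 4)) : Perm (Fin 4)) = 1 := by rw [map_one]; rfl
  let F : K := ⟨f, hf⟩
  let Y : K := ⟨y, hy⟩
  have h1 := a4_facts (e F : Perm (Fin 4)) ⟨Equiv.Perm.mem_alternatingGroup.mp (e F).2, by
      rw [← hmul, ← hone]; congr 2; exact Subtype.ext ff, fun h => f1 (by
        have := hinj F 1 (by rw [h, hone]); exact congrArg Subtype.val this)⟩ (e Y : Perm (Fin 4))
      ⟨by rw [← hmul, ← hmul, ← hone]; congr 2; exact Subtype.ext yyy, fun h => y1 (by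
        have := hinj Y 1 (by rw [h, hone]); exact congrArg Subtype.val this)⟩
  rw [← hinv, ← hmul, ← hmul, ← hmul, ← hmul, ← hmul, ← hmul] at h1
  refine ⟨ff, yyy, ?_, ?_⟩
  · exact congrArg Subtype.val (hinj _ _ h1.1)
  · exact congrArg Subtype.val (hinj _ _ h1.2)

theorem exists_iso {L : Subgroup G} (eL : Nonempty (L ≃* alternatingGroup (Fin 5))) {z : G} (hz : z ∈ L)
    (zz : z * z = 1) (z1 : z ≠ 1) : ∃ ε : L ≃* alternatingGroup (Fin 5), ε ⟨z, hz⟩ = ⟨t1, t1_mem⟩ := by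
  obtain ⟨e⟩ := eL
  obtain ⟨π, hπ, h1⟩ := conj_std (e ⟨z, hz⟩ : Perm (Fin 5)) (Equiv.Perm.mem_alternatingGroup.mp (e ⟨z, hz⟩).2)
    (by
      have : (e ⟨z, hz⟩ : alternatingGroup (Fin 5)) * e ⟨z, hz⟩ = 1 := by
        rw [← map_mul, ← map_one e]; congr 1; exact Subtype.ext zz
      exact congrArg Subtype.val this)
    (fun h => z1 (by
      have : (⟨z, hz⟩ : L) = 1 := e.injective (by rw [map_one]; exact Subtype.ext h)
      exact congrArg Subtype.val this))
  refine ⟨e.trans (MulAut.conj (⟨π, Equiv.Perm.mem_alternatingGroup.mpr hπ⟩ : alternatingGroup (Fin 5))⁻¹), ?_⟩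
  apply Subtype.ext
  show π⁻¹ * (e ⟨z, hz⟩ : Perm (Fin 5)) * (π⁻¹)⁻¹ = t1
  rw [inv_inv, h1]

theorem order3_sign {z c u : G} (zz : z * z = 1) (z1 : z ≠ 1) (cz : c * z = z * c) (ccc : c * c * c = 1)
    (h : c * u * c⁻¹ = z * u) : False := by
  apply z1
  have h1 : c * u = z * (u * c) := by rw [← mul_assoc]; exact mul_inv_eq_iff_eq_mul.mp h
  have h1' : ∀ w, c * (u * w) = z * (u * (c * w)) := fun w => by rw [← mul_assoc, h1]; simp only [mul_assoc]
  have cz' : ∀ w, c * (z * w) = z * (c * w) := fun w => by rw [← mul_assoc, cz, mul_assoc]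
  have zz' : ∀ w, z * (z * w) = w := fun w => by rw [← mul_assoc, zz, one_mul]
  have h2 : c * (c * (c * u)) = z * (u * (c * (c * c))) := by
    simp only [h1, h1', cz', zz']
  have h3 : c * (c * c) = 1 := by rw [← mul_assoc, ccc]
  have h4 : c * (c * (c * u)) = u := by
    calc c * (c * (c * u)) = (c * c * c) * u := by group
      _ = u := by rw [ccc, one_mul]
  rw [h3, h4, mul_one] at h2
  exact mul_right_cancel (b := u) (by rw [one_mul]; exact h2.symm)

variable [Finite G] {Q : Subgroup G} {z v : G} {x : Fin 5 → G} {E L K : Subgroup G}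

/-- **The points.** -/
theorem exists_four (S : J2Set Q z x v) (h : J2Loc z v E L K) :
    ∃ f y a : G, Four z a f y ∧ a ∈ Q ∧ f ∈ K ∧ y ∈ K ∧ f ≠ 1 ∧ y ≠ 1 ∧ tp a f y 4 ∈ L := by
  have zz := S.B.pl.sq
  have z1 := S.B.pl.ne_one
  have pl := S.B.pl
  have pts := S.B.pts
  have KL : ∀ k ∈ K, ∀ l ∈ L, k * l = l * k := h.comm
  -- y
  obtain ⟨Y, hY⟩ := A4.exists_three h.eK
  obtain ⟨y, hyK, hy3, hy1⟩ : ∃ y ∈ K, y * y * y = 1 ∧ y ≠ 1 := by
    refine ⟨Y, Y.2, ?_, ?_⟩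
    · have := pow_orderOf_eq_one Y
      rw [hY] at this
      have := congrArg Subtype.val this
      simpa [pow_succ] using this
    · intro h1
      have : Y = 1 := Subtype.ext h1
      rw [this, orderOf_one] at hY; omega
  -- f
  obtain ⟨f, hfE, hf1⟩ : ∃ f ∈ E, f ≠ 1 := by
    refine ⟨v, h.htE, ?_⟩
    intro h1
    have := h.ht
    rw [h1, orderOf_one] at this; omega
  have hfK := h.hEK hfE
  have ff := h.Esq f hfE
  have hFY : FY f y := fy_of h.eK hfK hyK ff hf1 hy3 hy1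
  have hfz : f * z = z * f := KL f hfK z h.hzL
  have hyz : y * z = z * y := KL y hyK z h.hzL
  have hfQ : f ∉ Q := S.not_mem_of_conj (h.hEt f hfE hf1).symm
  -- e'
  obtain ⟨ε, hε⟩ := exists_iso h.eL h.hzL zz z1
  obtain ⟨e', he'L, he'z, he'e, he'1, he'ne⟩ : ∃ e' ∈ L, e' * z = z * e' ∧ e' * e' = 1 ∧ e' ≠ 1 ∧ e' ≠ z := by
    have hd : (t2 * t1 = t1 * t2) ∧ t2 * t2 = 1 ∧ t2 ≠ 1 ∧ t2 ≠ t1 := by decide
    have hz' : ε.symm ⟨t1, t1_mem⟩ = ⟨z, h.hzL⟩ := by rw [← hε]; simp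
    refine ⟨ε.symm ⟨t2, t2_mem⟩, (ε.symm ⟨t2, t2_mem⟩).2, ?_, ?_, ?_, ?_⟩
    · have : ε.symm ⟨t2, t2_mem⟩ * ε.symm ⟨t1, t1_mem⟩ = ε.symm ⟨t1, t1_mem⟩ * ε.symm ⟨t2, t2_mem⟩ := by
        rw [← map_mul, ← map_mul]; congr 1; exact Subtype.ext hd.1
      rw [hz'] at this
      exact congrArg Subtype.val this
    · have : ε.symm ⟨t2, t2_mem⟩ * ε.symm ⟨t2, t2_mem⟩ = 1 := by
        rw [← map_mul, ← map_one ε.symm]; congr 1; exact Subtype.ext hd.2.1
      exact congrArg Subtype.val this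
    · intro h1
      have : ε.symm ⟨t2, t2_mem⟩ = ε.symm 1 := by rw [map_one]; exact Subtype.ext h1
      exact hd.2.2.1 (congrArg Subtype.val (ε.symm.injective this))
    · intro h1
      have : ε.symm ⟨t2, t2_mem⟩ = ε.symm ⟨t1, t1_mem⟩ := by rw [hz']; exact Subtype.ext h1
      exact hd.2.2.2 (congrArg Subtype.val (ε.symm.injective this))
  have he'Q : e' ∈ Q := S.mem_of_conj he'z (h.hLz e' he'L (orderOf_eq_prime (by rw [pow_two, he'e]) he'1)).symm
  obtain ⟨c, l, hel⟩ := invol_form pl pts S.B.cardQ he'Q he'1 he'ne he'e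
  -- the action of y
  obtain ⟨σ, hσ, s, hs, hact⟩ := S.B.act hyz
  have hσ1 : σ ≠ 1 := by
    rintro rfl
    have hyQ := S.B.mem_of_act_one hyz hact
    have h4 := pl.toXS.pow_four hyQ
    apply hy1
    have : y = y ^ 4 * (y * y * y)⁻¹ := by group
    rw [this, h4, hy3]; simp
  have hyyz : (y * y) * z = z * (y * y) := by rw [mul_assoc, hyz, ← mul_assoc, hyz, mul_assoc]
  have hσ3 : σ * σ * σ = 1 := by
    have h1 := act_mul pl hyyz (act_mul pl hyz hact hact) hact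
    rw [hy3] at h1
    exact ((act_unique pl pts (act_one pl) h1).1).symm
  obtain ⟨p₀, q₀, hpq₀, hp₀, hq₀, hfix⟩ := three_fix σ hσ3 hσ1
  have hye : y * e' = e' * y := KL y hyK e' he'L
  have hσl : σ l = l := by
    have h1 : y * e' * y⁻¹ = e' := by rw [mul_inv_eq_iff_eq_mul, hye]
    rw [hel] at h1
    have h2 : y * (zp z c * x l) * y⁻¹ = zp z (c + s l) * x (σ l) := by
      have e1 : y * (zp z c * x l) * y⁻¹ = (y * zp z c) * x l * y⁻¹ := by group
      rw [e1, zp_comm hyz, mul_assoc (zp z c), mul_assoc (zp z c), hact l, ← mul_assoc, ← zp_add pl.toXS]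
    rw [h2] at h1
    exact (pts.eq_of pl h1).1
  obtain ⟨p, hpl, hp⟩ : ∃ p, p ≠ l ∧ σ p = p := by
    rcases hfix l hσl with rfl | rfl
    · exact ⟨q₀, hpq₀.symm, hq₀⟩
    · exact ⟨p₀, hpq₀, hp₀⟩
  have hyx : ∀ r, σ r = r → y * x r = x r * y := by
    intro r hr
    have h1 := hact r
    rw [hr] at h1
    rcases zp_cases (z := z) (s r) with ⟨_, h2⟩ | ⟨_, h2⟩
    · rw [h2, one_mul, mul_inv_eq_iff_eq_mul] at h1
      exact h1
    · rw [h2] at h1
      exact (order3_sign zz z1 hyz hy3 h1).elim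
  -- the action of f
  obtain ⟨τ, hτ, s', hs', hact'⟩ := S.B.act hfz
  have hτ1 : τ ≠ 1 := by
    rintro rfl
    exact hfQ (S.B.mem_of_act_one hfz hact')
  have hτ2 : τ * τ = 1 := by
    have h1 := act_mul pl hfz hact' hact'
    rw [ff] at h1
    exact ((act_unique pl pts (act_one pl) h1).1).symm
  have hfe : f * e' = e' * f := KL f hfK e' he'L
  have hτl : τ l = l := by
    have h1 : f * e' * f⁻¹ = e' := by rw [mul_inv_eq_iff_eq_mul, hfe]
    rw [hel] at h1
    have h2 : f * (zp z c * x l) * f⁻¹ = zp z (c + s' l) * x (τ l) := by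
      have e1 : f * (zp z c * x l) * f⁻¹ = (f * zp z c) * x l * f⁻¹ := by group
      rw [e1, zp_comm hfz, mul_assoc (zp z c), mul_assoc (zp z c), hact' l, ← mul_assoc, ← zp_add pl.toXS]
    rw [h2] at h1
    exact (pts.eq_of pl h1).1
  have hτp : τ p ≠ p := fun hp' => hpl (two_fix τ (Equiv.Perm.mem_alternatingGroup.mp hτ) hτ2 hτ1 _ _ hp' hτl)
  have hfi : f⁻¹ = f := inv_eq_of_mul_eq_one_left ff
  have hxp : f * x p * f = zp z (s' p) * x (τ p) := by
    have := hact' p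
    rwa [hfi] at this
  have hfour : Four z (x p) f y := by
    refine ⟨zz, pts.sq p, hfz, hyz, pts.comm_z pl p, hyx p hp, hFY, ?_⟩
    rw [hxp]
    have h1 := pts.anti p (τ p) (Ne.symm hτp)
    have h2 : x p * zp z (s' p) = zp z (s' p) * x p := zp_comm (pts.comm_z pl p) _
    rw [← mul_assoc, h2, mul_assoc, h1]
    have h3 : z * zp z (s' p) = zp z (s' p) * z := zp_comm (c := z) rfl _
    calc zp z (s' p) * (z * (x (τ p) * x p)) = (zp z (s' p) * z) * (x (τ p) * x p) := by group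
      _ = z * (zp z (s' p) * x (τ p) * x p) := by rw [← h3]; group
  refine ⟨f, y, x p, hfour, pts.mem p, hfK, hyK, hf1, hy1, ?_⟩
  -- the fifth point
  have B' := hfour.base S.B (pts.mem p)
  have hnc : tp (x p) f y 4 * x p ≠ x p * tp (x p) f y 4 := by
    intro h1
    have h2 : tp (x p) f y 4 * x p = z * (x p * tp (x p) f y 4) := B'.pts.anti 4 3 (by decide)
    rw [h1] at h2
    exact z1 (mul_right_cancel (b := x p * tp (x p) f y 4) (by rw [one_mul]; exact h2.symm))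
  obtain ⟨b, m, hbm⟩ := invol_form pl pts S.B.cardQ (B'.pts.mem 4)
    (fun h1 => hnc (by rw [h1]; simp)) (fun h1 => hnc (by rw [h1]; exact (pts.comm_z pl p).symm)) (B'.pts.sq 4)
  have hmp : m ≠ p := by
    rintro rfl
    apply hnc
    rw [hbm, mul_assoc, ← mul_assoc (x m) (zp z b), zp_comm (pts.comm_z pl m), mul_assoc]
  have hσm : σ m = m := by
    have h1 : y * tp (x p) f y 4 * y⁻¹ = tp (x p) f y 4 := hfour.cy4
    rw [hbm] at h1
    have h2 : y * (zp z b * x m) * y⁻¹ = zp z (b + s m) * x (σ m) := by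
      have e1 : y * (zp z b * x m) * y⁻¹ = (y * zp z b) * x m * y⁻¹ := by group
      rw [e1, zp_comm hyz, mul_assoc (zp z b), mul_assoc (zp z b), hact m, ← mul_assoc, ← zp_add pl.toXS]
    rw [h2] at h1
    exact (pts.eq_of pl h1).1
  have hml : m = l := by
    rcases hfix p hp with h1 | h1 <;> rcases hfix l hσl with h2 | h2 <;> rcases hfix m hσm with h3 | h3
    · rw [h3, h2]
    · exact absurd (h1.trans h2.symm) hpl
    · exact absurd (h3.trans h1.symm) hmp
    · rw [h3, h2]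
    · rw [h3, h2]
    · exact absurd (h3.trans h1.symm) hmp
    · exact absurd (h1.trans h2.symm) hpl
    · rw [h3, h2]
  have hxl : x l = zp z c * e' := by rw [hel, zp_zp pl.toXS]
  rw [hbm, hml, hxl]
  have hzpL : ∀ r, zp z r ∈ L := fun r => L.pow_mem h.hzL _
  exact L.mul_mem (hzpL _) (L.mul_mem (hzpL _) he'L)

end Cfsg.Agent.LE.J2U
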