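import Cfsg.Agent.LE.J2Card
import Cfsg.Agent.LE.J2Final

/-!
# Uniqueness of the Hall–Janko group, I: the points (owner: helper80)
-/
set_option autoImplicit false
set_option linter.all false

namespace Cfsg.Agent.LE.J2U

open Subgroup Cfsg.Agent.H90 Equiv

variable {G : Type*} [Group G]

/-- `(0 3)(1 2)` -/
def pf : Perm (Fin 5) := swap 0 3 * swap 1 2
/-- `1 → 0`, `2 → 1`, `0 → 2` -/
def py : Perm (Fin 5) := swap 0 1 * swap 0 2
/-- `4 → 3`, `3 → 2`, `2 → 4` -/
def pk : Perm (Fin 5) := swap 2 3 * swap 2 4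

theorem py_spec : py 1 = 0 ∧ py 2 = 1 ∧ py 0 = 2 ∧ py 3 = 3 ∧ py 4 = 4 := by decide
theorem pk_spec : pk 4 = 3 ∧ pk 3 = 2 ∧ pk 2 = 4 ∧ pk 0 = 0 ∧ pk 1 = 1 := by decide

/-- three involutions of a Klein group, permuted by `y` -/
structure FY (f y : G) : Prop where
  ff : f * f = 1
  yyy : y * y * y = 1
  rel : f * (y⁻¹ * f * y) = y * f * y⁻¹
  comm : f * (y⁻¹ * f * y) = (y⁻¹ * f * y) * f

set_option maxRecDepth 100000 in
theorem a4_facts : ∀ f : Perm (Fin 4), (Perm.sign f = 1 ∧ f * f = 1 ∧ f ≠ 1) → ∀ y : Perm (Fin 4), (y * y * y = 1 ∧ y ≠ 1) →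
    (f * (y⁻¹ * f * y) = y * f * y⁻¹ ∧ f * (y⁻¹ * f * y) = (y⁻¹ * f * y) * f) := by
  decide +kernel

set_option maxRecDepth 100000 in
theorem three_fix : ∀ σ : Perm (Fin 5), σ * σ * σ = 1 → σ ≠ 1 → ∃ p q : Fin 5, p ≠ q ∧ σ p = p ∧ σ q = q ∧
    ∀ r, σ r = r → r = p ∨ r = q := by
  decide +kernel

set_option maxRecDepth 100000 in
theorem two_fix : ∀ σ : Perm (Fin 5), Perm.sign σ = 1 → σ * σ = 1 → σ ≠ 1 → ∀ p q, σ p = p → σ q = q → p = q := by
  decide +kernel

set_option maxRecDepth 100000 in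
theorem cent_py : ∀ σ : Perm (Fin 5), Perm.sign σ = 1 → σ * py = py * σ → σ = 1 ∨ σ = py ∨ σ = py * py := by
  decide +kernel

section four

variable {z a b c d : G} (zz : z * z = 1) (aa : a * a = 1) (bb : b * b = 1) (cc : c * c = 1) (dd : d * d = 1)
  (az : a * z = z * a) (bz : b * z = z * b) (cz : c * z = z * c) (dz : d * z = z * d)
  (ba : b * a = z * (a * b)) (ca : c * a = z * (a * c)) (da : d * a = z * (a * d)) (cb : c * b = z * (b * c))
  (db : d * b = z * (b * d)) (dc : d * c = z * (c * d))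

include zz aa bb cc dd az bz cz dz ba ca da cb db dc in
theorem four_e : (a * b * c * d) * (a * b * c * d) = 1 ∧ d * c * b * a = a * b * c * d ∧
    b * c * a * d = a * b * c * d ∧ (a * b * c * d) * a = z * (a * (a * b * c * d)) ∧
    (a * b * c * d) * b = z * (b * (a * b * c * d)) ∧ (a * b * c * d) * c = z * (c * (a * b * c * d)) ∧
    (a * b * c * d) * d = z * (d * (a * b * c * d)) ∧ (a * b * c * d) * z = z * (a * b * c * d) := by
  have zz' : ∀ w, z * (z * w) = w := fun w => by rw [← mul_assoc, zz, one_mul]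
  have aa' : ∀ w, a * (a * w) = w := fun w => by rw [← mul_assoc, aa, one_mul]
  have bb' : ∀ w, b * (b * w) = w := fun w => by rw [← mul_assoc, bb, one_mul]
  have cc' : ∀ w, c * (c * w) = w := fun w => by rw [← mul_assoc, cc, one_mul]
  have dd' : ∀ w, d * (d * w) = w := fun w => by rw [← mul_assoc, dd, one_mul]
  have az' : ∀ w, a * (z * w) = z * (a * w) := fun w => by rw [← mul_assoc, az, mul_assoc]
  have bz' : ∀ w, b * (z * w) = z * (b * w) := fun w => by rw [← mul_assoc, bz, mul_assoc]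
  have cz' : ∀ w, c * (z * w) = z * (c * w) := fun w => by rw [← mul_assoc, cz, mul_assoc]
  have dz' : ∀ w, d * (z * w) = z * (d * w) := fun w => by rw [← mul_assoc, dz, mul_assoc]
  have ba' : ∀ w, b * (a * w) = z * (a * (b * w)) := fun w => by rw [← mul_assoc, ba]; simp only [mul_assoc]
  have ca' : ∀ w, c * (a * w) = z * (a * (c * w)) := fun w => by rw [← mul_assoc, ca]; simp only [mul_assoc]
  have da' : ∀ w, d * (a * w) = z * (a * (d * w)) := fun w => by rw [← mul_assoc, da]; simp only [mul_assoc]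
  have cb' : ∀ w, c * (b * w) = z * (b * (c * w)) := fun w => by rw [← mul_assoc, cb]; simp only [mul_assoc]
  have db' : ∀ w, d * (b * w) = z * (b * (d * w)) := fun w => by rw [← mul_assoc, db]; simp only [mul_assoc]
  have dc' : ∀ w, d * (c * w) = z * (c * (d * w)) := fun w => by rw [← mul_assoc, dc]; simp only [mul_assoc]
  refine ⟨?_, ?_, ?_, ?_, ?_, ?_, ?_, ?_⟩ <;>
  simp only [mul_assoc, zz, aa, bb, cc, dd, az, bz, cz, dz, ba, ca, da, cb, db, dc, zz', aa', bb', cc', dd', az', bz',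
    cz', dz', ba', ca', da', cb', db', dc', mul_one]

end four

/-- the five points -/
def tp (a f y : G) : Fin 5 → G :=
  ![f * a * f, y⁻¹ * (f * a * f) * y, y * (f * a * f) * y⁻¹, a,
    (f * a * f) * (y⁻¹ * (f * a * f) * y) * (y * (f * a * f) * y⁻¹) * a]

/-- hypotheses for the construction of the points -/
structure Four (z a f y : G) : Prop where
  zz : z * z = 1
  aa : a * a = 1
  fz : f * z = z * f
  yz : y * z = z * y
  az : a * z = z * a
  ya : y * a = a * y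
  fy : FY f y
  anti : a * (f * a * f) = z * ((f * a * f) * a)

theorem conj_eq {g a b : G} : g * a * g⁻¹ = b ↔ g * a = b * g := mul_inv_eq_iff_eq_mul

namespace Four

variable {z a f y : G} (h : Four z a f y)
include h

theorem fi : f⁻¹ = f := inv_eq_of_mul_eq_one_left h.fy.ff
theorem ai : a⁻¹ = a := inv_eq_of_mul_eq_one_left h.aa
theorem zi : z⁻¹ = z := inv_eq_of_mul_eq_one_left h.zz
theorem yi : y⁻¹ = y * y := inv_eq_of_mul_eq_one_left h.fy.yyy
theorem yaI : y⁻¹ * a = a * y⁻¹ := by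
  rw [inv_mul_eq_iff_eq_mul, ← mul_assoc, h.ya]; group

theorem anti_conj {g u v : G} (hg : g * z = z * g) (huv : u * v = z * (v * u)) :
    (g * u * g⁻¹) * (g * v * g⁻¹) = z * ((g * v * g⁻¹) * (g * u * g⁻¹)) := by
  have e1 : (g * u * g⁻¹) * (g * v * g⁻¹) = g * (u * v) * g⁻¹ := by group
  have e2 : (g * v * g⁻¹) * (g * u * g⁻¹) = g * (v * u) * g⁻¹ := by group
  rw [e1, e2, huv, ← mul_assoc g, hg]; group

theorem yzI : y⁻¹ * z = z * y⁻¹ := by
  rw [inv_mul_eq_iff_eq_mul, ← mul_assoc, h.yz]; group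

/-- conjugation by `f` and `y` -/
theorem cf0 : f * tp a f y 0 * f⁻¹ = tp a f y 3 := by
  simp only [tp, Matrix.cons_val_zero, Matrix.cons_val]
  rw [h.fi]
  calc f * (f * a * f) * f = (f * f) * a * (f * f) := by group
    _ = a := by rw [h.fy.ff]; simp

theorem cf3 : f * tp a f y 3 * f⁻¹ = tp a f y 0 := by
  simp only [tp, Matrix.cons_val_zero, Matrix.cons_val]
  rw [h.fi]

theorem t1_eq : tp a f y 1 = (y⁻¹ * f * y) * a * (y⁻¹ * f * y) := by
  simp only [tp, Matrix.cons_val_one, Matrix.cons_val]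
  calc y⁻¹ * (f * a * f) * y = y⁻¹ * f * (a * y * y⁻¹) * f * y := by group
    _ = y⁻¹ * f * (y * a * y⁻¹) * f * y := by rw [← h.ya]
    _ = _ := by group

theorem t2_eq : tp a f y 2 = (y * f * y⁻¹) * a * (y * f * y⁻¹) := by
  simp only [tp, Matrix.cons_val]
  calc y * (f * a * f) * y⁻¹ = y * f * (a * y⁻¹ * y) * f * y⁻¹ := by group
    _ = y * f * (y⁻¹ * a * y) * f * y⁻¹ := by rw [← h.yaI]
    _ = _ := by group

theorem cf1 : f * tp a f y 1 * f⁻¹ = tp a f y 2 := by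
  rw [h.t1_eq, h.t2_eq, h.fi, ← h.fy.rel]
  calc f * ((y⁻¹ * f * y) * a * (y⁻¹ * f * y)) * f = (f * (y⁻¹ * f * y)) * a * ((y⁻¹ * f * y) * f) := by
        simp only [mul_assoc]
    _ = _ := by rw [← h.fy.comm]

theorem cf2 : f * tp a f y 2 * f⁻¹ = tp a f y 1 := by
  rw [← h.cf1, h.fi]
  calc f * (f * tp a f y 1 * f) * f = (f * f) * tp a f y 1 * (f * f) := by group
    _ = _ := by rw [h.fy.ff]; simp

theorem cy0 : y * tp a f y 0 * y⁻¹ = tp a f y 2 := by
  simp only [tp, Matrix.cons_val_zero, Matrix.cons_val]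

theorem cy1 : y * tp a f y 1 * y⁻¹ = tp a f y 0 := by
  simp only [tp, Matrix.cons_val_zero, Matrix.cons_val_one, Matrix.cons_val]
  group

theorem cy2 : y * tp a f y 2 * y⁻¹ = tp a f y 1 := by
  simp only [tp, Matrix.cons_val_one, Matrix.cons_val]
  calc y * (y * (f * a * f) * y⁻¹) * y⁻¹ = (y * y) * (f * a * f) * (y * y)⁻¹ := by group
    _ = _ := by rw [← h.yi]; group

theorem cy3 : y * tp a f y 3 * y⁻¹ = tp a f y 3 := by
  simp only [tp, Matrix.cons_val]
  rw [conj_eq, h.ya]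

theorem sq0 : tp a f y 0 * tp a f y 0 = 1 := by
  simp only [tp, Matrix.cons_val_zero, Matrix.cons_val]
  calc f * a * f * (f * a * f) = f * a * (f * f) * a * f := by group
    _ = f * (a * a) * f := by rw [h.fy.ff]; group
    _ = 1 := by rw [h.aa, mul_one, h.fy.ff]

theorem sq1 : tp a f y 1 * tp a f y 1 = 1 := by
  have h0 := h.sq0
  have : tp a f y 1 = y⁻¹ * tp a f y 0 * y := by simp [tp]
  rw [this]
  calc y⁻¹ * tp a f y 0 * y * (y⁻¹ * tp a f y 0 * y) = y⁻¹ * (tp a f y 0 * tp a f y 0) * y := by group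
    _ = 1 := by rw [h0]; group

theorem sq2 : tp a f y 2 * tp a f y 2 = 1 := by
  have h0 := h.sq0
  rw [← h.cy0]
  calc y * tp a f y 0 * y⁻¹ * (y * tp a f y 0 * y⁻¹) = y * (tp a f y 0 * tp a f y 0) * y⁻¹ := by group
    _ = 1 := by rw [h0]; group

theorem sq3 : tp a f y 3 * tp a f y 3 = 1 := h.aa

theorem a30 : tp a f y 3 * tp a f y 0 = z * (tp a f y 0 * tp a f y 3) := h.anti

theorem a32 : tp a f y 3 * tp a f y 2 = z * (tp a f y 2 * tp a f y 3) := by
  have := anti_conj h h.yz h.a30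
  rwa [h.cy3, h.cy0] at this

theorem a31 : tp a f y 3 * tp a f y 1 = z * (tp a f y 1 * tp a f y 3) := by
  have := anti_conj h h.yz h.a32
  rwa [h.cy3, h.cy2] at this

theorem a02 : tp a f y 0 * tp a f y 2 = z * (tp a f y 2 * tp a f y 0) := by
  have := anti_conj h h.fz h.a31
  rwa [h.cf3, h.cf1] at this

theorem a21 : tp a f y 2 * tp a f y 1 = z * (tp a f y 1 * tp a f y 2) := by
  have := anti_conj h h.yz h.a02
  rwa [h.cy0, h.cy2] at this

theorem a10 : tp a f y 1 * tp a f y 0 = z * (tp a f y 0 * tp a f y 1) := by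
  have := anti_conj h h.yz h.a21
  rwa [h.cy2, h.cy1] at this

theorem comm_conj' {g u : G} (hg : g * z = z * g) (hu : u * z = z * u) :
    (g * u * g⁻¹) * z = z * (g * u * g⁻¹) := by
  have e : g⁻¹ * z = z * g⁻¹ := by rw [inv_mul_eq_iff_eq_mul, ← mul_assoc, hg]; group
  calc g * u * g⁻¹ * z = g * u * (g⁻¹ * z) := by group
    _ = g * (u * z) * g⁻¹ := by rw [e]; group
    _ = (g * z) * u * g⁻¹ := by rw [hu]; group
    _ = _ := by rw [hg]; group

theorem z3 : tp a f y 3 * z = z * tp a f y 3 := h.az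
theorem z0 : tp a f y 0 * z = z * tp a f y 0 := by rw [← h.cf3]; exact comm_conj' h h.fz h.z3
theorem z2 : tp a f y 2 * z = z * tp a f y 2 := by rw [← h.cy0]; exact comm_conj' h h.yz h.z0
theorem z1 : tp a f y 1 * z = z * tp a f y 1 := by rw [← h.cy2]; exact comm_conj' h h.yz h.z2

omit h in
theorem t4_eq : tp a f y 4 = tp a f y 0 * tp a f y 1 * tp a f y 2 * tp a f y 3 := by
  simp [tp]

theorem flip {u w : G} (hu : u * z = z * u) (hw : w * z = z * w) (huw : u * w = z * (w * u)) :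
    w * u = z * (u * w) := by
  rw [huw, ← mul_assoc, h.zz, one_mul]

theorem all : tp a f y 4 * tp a f y 4 = 1 ∧
    tp a f y 3 * tp a f y 2 * tp a f y 1 * tp a f y 0 = tp a f y 4 ∧
    tp a f y 1 * tp a f y 2 * tp a f y 0 * tp a f y 3 = tp a f y 4 ∧
    tp a f y 4 * tp a f y 0 = z * (tp a f y 0 * tp a f y 4) ∧
    tp a f y 4 * tp a f y 1 = z * (tp a f y 1 * tp a f y 4) ∧
    tp a f y 4 * tp a f y 2 = z * (tp a f y 2 * tp a f y 4) ∧
    tp a f y 4 * tp a f y 3 = z * (tp a f y 3 * tp a f y 4) ∧ tp a f y 4 * z = z * tp a f y 4 := by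
  rw [t4_eq]
  exact four_e h.zz h.sq0 h.sq1 h.sq2 h.sq3 h.z0 h.z1 h.z2 h.z3 h.a10 (h.flip h.z0 h.z2 h.a02) h.a30
    h.a21 h.a31 h.a32

theorem sq : ∀ i, tp a f y i * tp a f y i = 1 := by
  intro i
  fin_cases i
  · exact h.sq0
  · exact h.sq1
  · exact h.sq2
  · exact h.sq3
  · exact h.all.1

theorem zt : ∀ i, tp a f y i * z = z * tp a f y i := by
  intro i
  fin_cases i
  · exact h.z0
  · exact h.z1
  · exact h.z2
  · exact h.z3
  · exact h.all.2.2.2.2.2.2.2

theorem anti' : ∀ i j, i ≠ j → tp a f y i * tp a f y j = z * (tp a f y j * tp a f y i) := by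
  have key : ∀ i j : Fin 5, i < j → tp a f y j * tp a f y i = z * (tp a f y i * tp a f y j) := by
    obtain ⟨-, -, -, h0, h1, h2, h3, -⟩ := h.all
    intro i j hij
    fin_cases i <;> fin_cases j <;> first | (exfalso; revert hij; decide) | skip
    · exact h.a10
    · exact h.flip h.z0 h.z2 h.a02
    · exact h.a30
    · exact h0
    · exact h.a21
    · exact h.a31
    · exact h1
    · exact h.a32
    · exact h2
    · exact h3
  intro i j hij
  rcases lt_or_gt_of_ne hij with h1 | h1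
  · exact h.flip (h.zt j) (h.zt i) (key i j h1)
  · exact key j i h1

theorem cf4 : f * tp a f y 4 * f⁻¹ = tp a f y 4 := by
  have e : f * tp a f y 4 * f⁻¹ = (f * tp a f y 0 * f⁻¹) * (f * tp a f y 1 * f⁻¹) * (f * tp a f y 2 * f⁻¹) *
      (f * tp a f y 3 * f⁻¹) := by rw [t4_eq]; group
  rw [e, h.cf0, h.cf1, h.cf2, h.cf3]
  exact h.all.2.1

theorem cy4 : y * tp a f y 4 * y⁻¹ = tp a f y 4 := by
  have e : y * (tp a f y 1 * tp a f y 2 * tp a f y 0 * tp a f y 3) * y⁻¹ = (y * tp a f y 1 * y⁻¹) *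
      (y * tp a f y 2 * y⁻¹) * (y * tp a f y 0 * y⁻¹) * (y * tp a f y 3 * y⁻¹) := by group
  conv_lhs => rw [← h.all.2.2.1]
  rw [e, h.cy0, h.cy1, h.cy2, h.cy3, ← t4_eq]

theorem actf : Act z (tp a f y) f pf 0 := by
  have hp : pf 0 = 3 ∧ pf 1 = 2 ∧ pf 2 = 1 ∧ pf 3 = 0 ∧ pf 4 = 4 := by decide
  intro i
  simp only [Pi.zero_apply, zp_zero, one_mul]
  fin_cases i
  · rw [show pf ((fun i ↦ i) ⟨0, by decide⟩) = 3 from hp.1]; exact h.cf0
  · rw [show pf ((fun i ↦ i) ⟨1, by decide⟩) = 2 from hp.2.1]; exact h.cf1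
  · rw [show pf ((fun i ↦ i) ⟨2, by decide⟩) = 1 from hp.2.2.1]; exact h.cf2
  · rw [show pf ((fun i ↦ i) ⟨3, by decide⟩) = 0 from hp.2.2.2.1]; exact h.cf3
  · rw [show pf ((fun i ↦ i) ⟨4, by decide⟩) = 4 from hp.2.2.2.2]; exact h.cf4

theorem acty : Act z (tp a f y) y py 0 := by
  have hp := py_spec
  intro i
  simp only [Pi.zero_apply, zp_zero, one_mul]
  fin_cases i
  · rw [show py ((fun i ↦ i) ⟨0, by decide⟩) = 2 from hp.2.2.1]; exact h.cy0
  · rw [show py ((fun i ↦ i) ⟨1, by decide⟩) = 0 from hp.1]; exact h.cy1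
  · rw [show py ((fun i ↦ i) ⟨2, by decide⟩) = 1 from hp.2.1]; exact h.cy2
  · rw [show py ((fun i ↦ i) ⟨3, by decide⟩) = 3 from hp.2.2.2.1]; exact h.cy3
  · rw [show py ((fun i ↦ i) ⟨4, by decide⟩) = 4 from hp.2.2.2.2]; exact h.cy4

/-- the points form a base -/
theorem base [Finite G] {Q : Subgroup G} {x : Fin 5 → G} (B : Base Q z x) (haQ : a ∈ Q) : Base Q z (tp a f y) where
  pl := B.pl
  cardQ := B.cardQ
  cardC := B.cardC
  pts := by
    have m0 : tp a f y 0 ∈ Q := by rw [← h.cf3]; exact B.pl.norm f h.fz _ haQ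
    have m2 : tp a f y 2 ∈ Q := by rw [← h.cy0]; exact B.pl.norm y h.yz _ m0
    have m1 : tp a f y 1 ∈ Q := by rw [← h.cy2]; exact B.pl.norm y h.yz _ m2
    have m4 : tp a f y 4 ∈ Q := by rw [t4_eq]; exact Q.mul_mem (Q.mul_mem (Q.mul_mem m0 m1) m2) haQ
    refine ⟨?_, h.sq, h.anti', Or.inl ?_⟩
    · intro i
      fin_cases i
      · exact m0
      · exact m1
      · exact m2
      · exact haQ
      · exact m4
    · have : tp a f y 0 * (tp a f y 1 * (tp a f y 2 * (tp a f y 3 * tp a f y 4))) =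
        (tp a f y 0 * tp a f y 1 * tp a f y 2 * tp a f y 3) * tp a f y 4 := by group
      rw [this, ← t4_eq]
      exact h.sq 4

end Four

end Cfsg.Agent.LE.J2U
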