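import Cfsg.Agent.LE.J2U.Loc

/-!
# Uniqueness of the Hall–Janko group, III: relations (owner: helper80)
-/
set_option autoImplicit false
set_option linter.all false

namespace Cfsg.Agent.LE.J2U

open Subgroup Cfsg.Agent.H90 Equiv

variable {G : Type*} [Group G]

/-- the situation after the choice of the points -/
structure Ctx (Q : Subgroup G) (z : G) (x : Fin 5 → G) (v : G) (E L K : Subgroup G) (f y a : G) : Prop where
  S : J2Set Q z x v
  h : J2Loc z v E L K
  F : Four z a f y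
  aQ : a ∈ Q
  fK : f ∈ K
  yK : y ∈ K
  f1 : f ≠ 1
  y1 : y ≠ 1
  eL : tp a f y 4 ∈ L

/-- elements `d`, `s` of `A₅` with respect to the Klein group `⟨z, e⟩` -/
structure DS (z e d s : G) : Prop where
  ddd : d * d * d = 1
  dz : z * d = d * e
  de : e * d = d * (z * e)
  ss : s * s = 1
  sd : (s * d) * (s * d) = 1
  zs : (z * s) * (z * s) * (z * s) = 1
  zd : (z * d) * (z * d) * (z * d) = 1

/-- `2 → 1`, `3 → 2`, `1 → 3` -/
def pd : Perm (Fin 5) := swap 1 2 * swap 1 3
/-- `(2 3)(0 4)` -/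
def ps : Perm (Fin 5) := swap 2 3 * swap 0 4

theorem pd_mem : pd ∈ alternatingGroup (Fin 5) := Equiv.Perm.mem_alternatingGroup.mpr (by decide)
theorem ps_mem : ps ∈ alternatingGroup (Fin 5) := Equiv.Perm.mem_alternatingGroup.mpr (by decide)

theorem pds : pd * pd * pd = 1 ∧ t1 * pd = pd * t2 ∧ t2 * pd = pd * (t1 * t2) ∧ ps * ps = 1 ∧
    (ps * pd) * (ps * pd) = 1 ∧ (t1 * ps) * (t1 * ps) * (t1 * ps) = 1 ∧ (t1 * pd) * (t1 * pd) * (t1 * pd) = 1 := by
  decide

theorem ds_exists {L : Subgroup G} {z e : G} (ε : L ≃* alternatingGroup (Fin 5)) (hz : z ∈ L) (he : e ∈ L)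
    (h1 : ε ⟨z, hz⟩ = ⟨t1, t1_mem⟩) (h2 : ε ⟨e, he⟩ = ⟨t2, t2_mem⟩) : ∃ d ∈ L, ∃ s ∈ L, DS z e d s := by
  have hinj : ∀ u w : L, (((ε u : alternatingGroup (Fin 5)) : Perm (Fin 5)) = ((ε w : alternatingGroup (Fin 5)) : Perm (Fin 5))) → (u : G) = w :=
    fun u w h => congrArg Subtype.val (ε.injective (Subtype.ext h))
  have hmul : ∀ u w : L, ((ε (u * w) : alternatingGroup (Fin 5)) : Perm (Fin 5)) = (ε u : Perm (Fin 5)) * (ε w : Perm (Fin 5)) :=
    fun u w => by rw [map_mul]; rfl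
  have hone : ((ε 1 : alternatingGroup (Fin 5)) : Perm (Fin 5)) = 1 := by rw [map_one]; rfl
  have hs : ∀ a : alternatingGroup (Fin 5), ((ε (ε.symm a) : alternatingGroup (Fin 5)) : Perm (Fin 5)) = a := by
    intro a; rw [ε.apply_symm_apply]
  obtain ⟨p1, p2, p3, p4, p5, p6, p7⟩ := pds
  have hZ : ((ε ⟨z, hz⟩ : alternatingGroup (Fin 5)) : Perm (Fin 5)) = t1 := by rw [h1]
  have hE : ((ε ⟨e, he⟩ : alternatingGroup (Fin 5)) : Perm (Fin 5)) = t2 := by rw [h2]
  have hD := hs ⟨pd, pd_mem⟩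
  have hS := hs ⟨ps, ps_mem⟩
  refine ⟨ε.symm ⟨pd, pd_mem⟩, (ε.symm ⟨pd, pd_mem⟩).2, ε.symm ⟨ps, ps_mem⟩, (ε.symm ⟨ps, ps_mem⟩).2, ?_⟩
  constructor
  · refine hinj (ε.symm ⟨pd, pd_mem⟩ * ε.symm ⟨pd, pd_mem⟩ * ε.symm ⟨pd, pd_mem⟩) 1 ?_
    rw [hmul, hmul, hone, hD]; exact p1
  · refine hinj (⟨z, hz⟩ * ε.symm ⟨pd, pd_mem⟩) (ε.symm ⟨pd, pd_mem⟩ * ⟨e, he⟩) ?_
    rw [hmul, hmul, hD, hZ, hE]; exact p2
  · refine hinj (⟨e, he⟩ * ε.symm ⟨pd, pd_mem⟩) (ε.symm ⟨pd, pd_mem⟩ * (⟨z, hz⟩ * ⟨e, he⟩)) ?_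
    rw [hmul, hmul, hmul, hD, hZ, hE]; exact p3
  · refine hinj (ε.symm ⟨ps, ps_mem⟩ * ε.symm ⟨ps, ps_mem⟩) 1 ?_
    rw [hmul, hone, hS]; exact p4
  · refine hinj ((ε.symm ⟨ps, ps_mem⟩ * ε.symm ⟨pd, pd_mem⟩) * (ε.symm ⟨ps, ps_mem⟩ * ε.symm ⟨pd, pd_mem⟩)) 1 ?_
    rw [hmul, hmul, hone, hS, hD]; exact p5
  · refine hinj ((⟨z, hz⟩ * ε.symm ⟨ps, ps_mem⟩) * (⟨z, hz⟩ * ε.symm ⟨ps, ps_mem⟩) * (⟨z, hz⟩ * ε.symm ⟨ps, ps_mem⟩)) 1 ?_
    rw [hmul, hmul, hmul, hone, hS, hZ]; exact p6
  · refine hinj ((⟨z, hz⟩ * ε.symm ⟨pd, pd_mem⟩) * (⟨z, hz⟩ * ε.symm ⟨pd, pd_mem⟩) * (⟨z, hz⟩ * ε.symm ⟨pd, pd_mem⟩)) 1 ?_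
    rw [hmul, hmul, hmul, hone, hD, hZ]; exact p7

theorem swap_t : swap (0 : Fin 5) 1 * t1 * (swap (0 : Fin 5) 1)⁻¹ = t1 ∧
    swap (0 : Fin 5) 1 * t3 * (swap (0 : Fin 5) 1)⁻¹ = t2 := by decide

theorem ds_exists' {L : Subgroup G} (eL : Nonempty (L ≃* alternatingGroup (Fin 5))) {z e : G} (hz : z ∈ L)
    (he : e ∈ L) (zz : z * z = 1) (z1 : z ≠ 1) (e1 : e ≠ 1) (ez : e ≠ z) (hc : e * z = z * e) :
    ∃ d ∈ L, ∃ s ∈ L, DS z e d s := by
  obtain ⟨ε, hε⟩ := exists_iso eL hz zz z1
  have hE : (ε ⟨e, he⟩ : Perm (Fin 5)) = 1 ∨ (ε ⟨e, he⟩ : Perm (Fin 5)) = t1 ∨ (ε ⟨e, he⟩ : Perm (Fin 5)) = t2 ∨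
      (ε ⟨e, he⟩ : Perm (Fin 5)) = t3 := by
    apply cent_t1 _ (Equiv.Perm.mem_alternatingGroup.mp (ε ⟨e, he⟩).2)
    have h1 : ε ⟨e, he⟩ * ε ⟨z, hz⟩ = ε ⟨z, hz⟩ * ε ⟨e, he⟩ := by
      rw [← map_mul, ← map_mul]; congr 1; exact Subtype.ext hc
    rw [hε] at h1
    exact congrArg Subtype.val h1
  rcases hE with h1 | h1 | h1 | h1
  · exfalso
    apply e1
    have : (⟨e, he⟩ : L) = 1 := ε.injective (by rw [map_one]; exact Subtype.ext h1)
    exact congrArg Subtype.val this
  · exfalso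
    apply ez
    have : (⟨e, he⟩ : L) = ⟨z, hz⟩ := ε.injective (by rw [hε]; exact Subtype.ext h1)
    exact congrArg Subtype.val this
  · exact ds_exists ε hz he hε (Subtype.ext h1)
  · let c : alternatingGroup (Fin 5) ≃* alternatingGroup (Fin 5) := MulAut.conjNormal (swap (0 : Fin 5) 1)
    refine ds_exists (ε.trans c) hz he ?_ ?_
    · rw [MulEquiv.trans_apply, hε]
      exact Subtype.ext swap_t.1
    · rw [MulEquiv.trans_apply]
      apply Subtype.ext
      show swap (0 : Fin 5) 1 * (ε ⟨e, he⟩ : Perm (Fin 5)) * (swap (0 : Fin 5) 1)⁻¹ = t2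
      rw [h1]
      exact swap_t.2

theorem inv_vec : ∀ r : Fin 5, (r = 3 ∨ r = 4) → ∀ s : Fin 5 → ZMod 2, (∑ i, s i = 0 ∧ s r = 0 ∧ ∀ i, s (py i) = s i) →
    (s = 0 ∨ s = fun j => if j = r then 0 else 1) := by
  decide +kernel

theorem fix_perm : ∀ r : Fin 5, (r = 3 ∨ r = 4) → py r = r := by decide

namespace Ctx

variable [Finite G] {Q : Subgroup G} {z v : G} {x : Fin 5 → G} {E L K : Subgroup G} {f y a : G}
variable (c : Ctx Q z x v E L K f y a)
include c

theorem B : Base Q z (tp a f y) := c.F.base c.S.B c.aQ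

theorem zL : z ∈ L := c.h.hzL

theorem fL {l : G} (hl : l ∈ L) : f * l = l * f := c.h.comm f c.fK l hl
theorem yL {l : G} (hl : l ∈ L) : y * l = l * y := c.h.comm y c.yK l hl

theorem z1 : z ≠ 1 := c.S.B.pl.ne_one

theorem e1 : tp a f y 4 ≠ 1 := by
  intro h1
  have h2 := c.B.pts.anti 4 3 (by decide)
  rw [h1, one_mul, mul_one] at h2
  exact c.z1 (mul_right_cancel (b := tp a f y 3) (by rw [one_mul]; exact h2.symm))

theorem ez : tp a f y 4 ≠ z := by
  intro h1
  have h2 := c.B.pts.anti 4 3 (by decide)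
  rw [h1, ← c.F.zt 3, ← mul_assoc] at h2
  exact c.z1 (mul_right_cancel (b := tp a f y 3 * z) (by
    rw [one_mul]
    calc z * (tp a f y 3 * z) = z * tp a f y 3 * z := by group
      _ = tp a f y 3 * z := h2.symm))

theorem cent_form {r : Fin 5} (hr : r = 3 ∨ r = 4) {u : G} (uz : u * z = z * u) (uy : u * y = y * u)
    (ur : u * tp a f y r = tp a f y r * u) :
    ∃ w, (w = 1 ∨ w = z ∨ w = tp a f y r ∨ w = z * tp a f y r) ∧ ∃ i < 3, u = w * y ^ i := by
  have B := c.B
  obtain ⟨σ, hσ, s, hs, hact⟩ := B.act uz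
  have h1 := act_mul B.pl uz hact c.F.acty
  have h2 := act_mul B.pl c.F.yz c.F.acty hact
  rw [uy] at h1
  have h3 := (act_unique B.pl B.pts h1 h2).1
  obtain ⟨i, hi, hσi⟩ : ∃ i < 3, σ = py ^ i := by
    rcases cent_py σ (Equiv.Perm.mem_alternatingGroup.mp hσ) h3 with h4 | h4 | h4
    · exact ⟨0, by norm_num, by rw [h4, pow_zero]⟩
    · exact ⟨1, by norm_num, by rw [h4, pow_one]⟩
    · exact ⟨2, by norm_num, by rw [h4, pow_two]⟩
  -- powers of y
  have hyz : ∀ n : ℕ, y ^ n * z = z * y ^ n := fun n => (show Commute y z from c.F.yz).pow_left n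
  have hactp : ∀ n : ℕ, Act z (tp a f y) (y ^ n) (py ^ n) 0 := by
    intro n
    induction n with
    | zero => simpa using act_one B.pl
    | succ n ih =>
      have := act_mul B.pl (hyz n) ih c.F.acty
      rw [pow_succ, pow_succ]
      intro j
      rw [this j]
      simp
  set q := u * (y ^ i)⁻¹ with hq
  have hyi : (y ^ i)⁻¹ * z = z * (y ^ i)⁻¹ := by
    rw [inv_mul_eq_iff_eq_mul, ← mul_assoc, hyz i]; group
  have qz : q * z = z * q := by rw [hq, mul_assoc, hyi, ← mul_assoc, uz, mul_assoc]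
  have qact := act_mul B.pl uz hact (act_inv B.pl (hyz i) (hactp i))
  rw [← hq, hσi, mul_inv_cancel] at qact
  have hqQ : q ∈ Q := B.mem_of_act_one qz qact
  have uyi : ∀ n : ℕ, u * y ^ n = y ^ n * u := fun n => (show Commute u y from uy).pow_right n
  have qy : q * y = y * q := by
    rw [hq]
    calc u * (y ^ i)⁻¹ * y = u * y * (y ^ i)⁻¹ := by group
      _ = y * (u * (y ^ i)⁻¹) := by rw [uy]; group
  have yr : y * tp a f y r = tp a f y r * y := by
    have := c.F.acty r
    rw [fix_perm r hr, Pi.zero_apply, zp_zero, one_mul, mul_inv_eq_iff_eq_mul] at this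
    exact this
  have yir : (y ^ i) * tp a f y r = tp a f y r * (y ^ i) :=
    (show Commute y (tp a f y r) from yr).pow_left i
  have qr : q * tp a f y r = tp a f y r * q := by
    rw [hq]
    have h5 : (y ^ i)⁻¹ * tp a f y r = tp a f y r * (y ^ i)⁻¹ := by
      rw [inv_mul_eq_iff_eq_mul, ← mul_assoc, yir]; group
    rw [mul_assoc, h5, ← mul_assoc, ur, mul_assoc]
  obtain ⟨s', hs', hact'⟩ := act_q B.pl B.pts B.cardQ hqQ
  have h6 := act_mul B.pl qz hact' c.F.acty
  have h7 := act_mul B.pl c.F.yz c.F.acty hact'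
  rw [qy] at h6
  have h8 := (act_unique B.pl B.pts h6 h7).2
  have h9 : ∀ j, s' (py j) = s' j := by
    intro j
    have := congrFun h8 j
    simpa using this
  have h10 : s' r = 0 := by
    have := hact' r
    rw [qr, mul_inv_cancel_right, Equiv.Perm.one_apply] at this
    have h11 : zp z 0 * tp a f y r = zp z (s' r) * tp a f y r := by rw [zp_zero, one_mul]; exact this
    exact (B.pts.eq_of B.pl h11).2.symm
  have key : ∃ w, (w = 1 ∨ w = z ∨ w = tp a f y r ∨ w = z * tp a f y r) ∧ q = w := by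
    rcases inv_vec r hr s' ⟨hs', h10, h9⟩ with h11 | h11
    · rw [h11] at hact'
      obtain ⟨b, hb⟩ := act_trivial B.pl B.pts B.cardQ hqQ hact'
      rcases zp_cases (z := z) b with ⟨_, h12⟩ | ⟨_, h12⟩
      · exact ⟨1, Or.inl rfl, by rw [hb, h12]⟩
      · exact ⟨z, Or.inr (Or.inl rfl), by rw [hb, h12]⟩
    · rw [h11] at hact'
      obtain ⟨b, hb⟩ := B.ext qz (B.pts.comm_z B.pl r) hact' (act_self B.pl B.pts r)
      rcases zp_cases (z := z) b with ⟨_, h12⟩ | ⟨_, h12⟩
      · exact ⟨_, Or.inr (Or.inr (Or.inl rfl)), by rw [hb, h12, one_mul]⟩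
      · exact ⟨_, Or.inr (Or.inr (Or.inr rfl)), by rw [hb, h12]⟩
  obtain ⟨w, hw, hqw⟩ := key
  exact ⟨w, hw, i, hi, by rw [← hqw, hq]; group⟩

theorem e_z : tp a f y 4 * z = z * tp a f y 4 := c.F.zt 4
theorem e_e : tp a f y 4 * tp a f y 4 = 1 := c.F.sq 4
/-- `a e = z e a` -/
theorem a_e : a * tp a f y 4 = z * (tp a f y 4 * a) := c.B.pts.anti 3 4 (by decide)
theorem e_a : tp a f y 4 * a = z * (a * tp a f y 4) := c.B.pts.anti 4 3 (by decide)
theorem y_e : y * tp a f y 4 = tp a f y 4 * y := c.yL c.eL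
theorem f_e : f * tp a f y 4 = tp a f y 4 * f := c.fL c.eL

theorem exists_ds : ∃ d ∈ L, ∃ s ∈ L, DS z (tp a f y 4) d s ∧ ∃ i < 3, (d * a) * (d * a) = y ^ i := by
  obtain ⟨d, hd, s, hs, D⟩ := ds_exists' c.h.eL c.zL c.eL c.F.zz c.z1 c.e1 c.ez c.e_z
  set e := tp a f y 4 with he
  have zz := c.F.zz
  have ee : e * e = 1 := c.e_e
  have aa := c.F.aa
  have ez := c.e_z
  have az := c.F.az
  have ae := c.a_e
  have ea := c.e_a
  rw [← he] at ez ae ea
  have zz' : ∀ w, z * (z * w) = w := fun w => by rw [← mul_assoc, zz, one_mul]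
  have aa' : ∀ w, a * (a * w) = w := fun w => by rw [← mul_assoc, aa, one_mul]
  have ee' : ∀ w, e * (e * w) = w := fun w => by rw [← mul_assoc, ee, one_mul]
  have za1 : z * a = a * z := az.symm
  have za' : ∀ w, z * (a * w) = a * (z * w) := fun w => by rw [← mul_assoc, za1, mul_assoc]
  have ez' : ∀ w, e * (z * w) = z * (e * w) := fun w => by rw [← mul_assoc, ez, mul_assoc]
  have ea1 : e * a = a * (z * e) := by rw [ea, ← mul_assoc, za1, mul_assoc]
  have ea' : ∀ w, e * (a * w) = a * (z * (e * w)) := fun w => by rw [← mul_assoc, ea1]; simp only [mul_assoc]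
  have hdz := D.dz
  have hde := D.de
  have dz' : ∀ w, z * (d * w) = d * (e * w) := fun w => by rw [← mul_assoc, hdz, mul_assoc]
  have de' : ∀ w, e * (d * w) = d * (z * (e * w)) := fun w => by rw [← mul_assoc, hde]; simp only [mul_assoc]
  -- everything in `E` is moved to the right
  have uz : (d * a) * (d * a) * z = z * ((d * a) * (d * a)) := by
    simp only [mul_assoc, dz', de', hdz, hde, za1, za', ea1, ea', ez, ez', zz, zz', ee, ee', aa, aa', mul_one]
  have ue : (d * a) * (d * a) * e = e * ((d * a) * (d * a)) := by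
    simp only [mul_assoc, dz', de', hdz, hde, za1, za', ea1, ea', ez, ez', zz, zz', ee, ee', aa, aa', mul_one]
  have yd : y * d = d * y := c.yL hd
  have ya : y * a = a * y := c.F.ya
  have uy : (d * a) * (d * a) * y = y * ((d * a) * (d * a)) := by
    have h1 : Commute y (d * a) := (show Commute y d from yd).mul_right ya
    exact (h1.mul_right h1).symm
  obtain ⟨w, hw, i, hi, hu⟩ := c.cent_form (Or.inr rfl) uz uy ue
  rw [← he] at hw
  -- `w` commutes with `d a`
  have hwb : w * (d * a) = (d * a) * w := by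
    have h1 : w = (d * a) * (d * a) * (y ^ i)⁻¹ := by rw [hu]; group
    have h2 : Commute (y ^ i) (d * a) := ((show Commute y d from yd).mul_right ya).pow_left i
    have h3 : (y ^ i)⁻¹ * (d * a) = (d * a) * (y ^ i)⁻¹ := h2.inv_left
    rw [h1, mul_assoc ((d * a) * (d * a)), h3]; group
  have e1 := c.e1
  rw [← he] at e1
  rcases hw with hw | hw | hw | hw <;> subst w
  · exact ⟨d, hd, s, hs, D, i, hi, by rw [hu, one_mul]⟩
  · exfalso
    have h1 : z * (d * a) = d * a * (z * e) := by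
      simp only [mul_assoc, dz', de', hdz, hde, za1, za', ea1, ea', ez, ez', zz, zz', ee, ee', aa, aa', mul_one]
    rw [h1, ← mul_assoc] at hwb
    exact e1 (mul_left_cancel (a := d * a * z) (by rw [mul_one]; exact hwb))
  · -- change `d`
    have yi_e : (y ^ i) * e = e * (y ^ i) := (show Commute y e from c.y_e).pow_left i
    refine ⟨e * d * e, L.mul_mem (L.mul_mem c.eL hd) c.eL, e * s * e, L.mul_mem (L.mul_mem c.eL hs) c.eL, ?_, i, hi, ?_⟩
    · have zz := c.F.zz
      have conj3 : ∀ u : G, u * u * u = 1 → (e * u * e) * (e * u * e) * (e * u * e) = 1 := by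
        intro u hu
        calc (e * u * e) * (e * u * e) * (e * u * e) = e * u * (e * e) * u * (e * e) * u * e := by group
          _ = e * (u * u * u) * e := by rw [ee]; group
          _ = 1 := by rw [hu, mul_one, ee]
      have conj2 : ∀ u : G, u * u = 1 → (e * u * e) * (e * u * e) = 1 := by
        intro u hu
        calc (e * u * e) * (e * u * e) = e * u * (e * e) * u * e := by group
          _ = e * (u * u) * e := by rw [ee]; group
          _ = 1 := by rw [hu, mul_one, ee]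
      have em : ∀ u w' : G, (e * u * e) * (e * w' * e) = e * (u * w') * e := by
        intro u w'
        calc (e * u * e) * (e * w' * e) = e * u * (e * e) * w' * e := by group
          _ = _ := by rw [ee]; group
      have eze : e * z * e = z := by rw [ez, mul_assoc, ee, mul_one]
      have eee : e * e * e = e := by rw [ee, one_mul]
      constructor
      · exact conj3 d D.ddd
      · have := em z d
        rw [eze, D.dz, ← em, eee] at this
        exact this
      · calc e * (e * d * e) = (e * e * e) * (e * d * e) := by rw [eee]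
          _ = e * (e * d) * e := em e d
          _ = e * (d * (z * e)) * e := by rw [D.de]
          _ = (e * d * e) * (e * (z * e) * e) := (em _ _).symm
          _ = (e * d * e) * ((e * z * e) * (e * e * e)) := by rw [em z e]
          _ = _ := by rw [eze, eee]
      · exact conj2 s D.ss
      · rw [em]; exact conj2 _ D.sd
      · have := em z s
        rw [eze] at this
        rw [this]; exact conj3 _ D.zs
      · have := em z d
        rw [eze] at this
        rw [this]; exact conj3 _ D.zd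
    · have h3 : (e * d * e * a) * (e * d * e * a) = (d * a) * (d * a) * e := by
        simp only [mul_assoc, dz', de', hdz, hde, za1, za', ea1, ea', ez, ez', zz, zz', ee, ee', aa, aa', mul_one]
      rw [h3, hu, mul_assoc, yi_e, ← mul_assoc, ee, one_mul]
  · exfalso
    have h1 : z * e * (d * a) = d * a * z := by
      simp only [mul_assoc, dz', de', hdz, hde, za1, za', ea1, ea', ez, ez', zz, zz', ee, ee', aa, aa', mul_one]
    rw [h1, ← mul_assoc] at hwb
    exact e1 (mul_left_cancel (a := d * a * z) (by rw [mul_one]; exact hwb.symm))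

theorem eq_of_pow_y {i : ℕ} (hi : i < 3) (h : y ^ i = 1) : i = 0 := by
  have h3 : y ^ 3 = 1 := by
    rw [pow_succ, pow_two]; exact c.F.fy.yyy
  have h4 : orderOf y = 3 := orderOf_eq_prime h3 c.y1
  have h5 := orderOf_dvd_of_pow_eq_one h
  rw [h4] at h5
  omega

/-- elements commuting with `d ∈ L` of order 3 -/
theorem cent_d {d : G} (hd : d ∈ L) (hd3 : d * d * d = 1) (hd1 : d ≠ 1) {u : G} (hu : u * d = d * u) :
    ∃ k ∈ K, ∃ i < 3, u = k * d ^ i := by
  have h3 : d ^ 3 = 1 := by rw [pow_succ, pow_two]; exact hd3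
  have ho : orderOf d = 3 := orderOf_eq_prime h3 hd1
  have hcard := c.h.card_C3L hd ho
  have hle : K ⊔ zpowers d ≤ centralizer ({d} : Set G) := by
    rw [sup_le_iff, zpowers_le]
    exact ⟨fun k hk => mem_centralizer_singleton_iff.2 (c.h.comm k hk d hd), mem_centralizer_singleton_iff.2 rfl⟩
  have hc2 : ∀ a ∈ K, ∀ b ∈ zpowers d, a * b = b * a := fun a ha b hb => c.h.comm a ha b ((zpowers_le.2 hd) hb)
  have h36 : Nat.card ↥(K ⊔ zpowers d) = 36 := by
    rw [card_sup_comm hc2, A4.card c.h.eK, Nat.card_zpowers, ho]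
    rw [eq_bot_iff, ← c.h.disj]
    exact inf_le_inf_left K (zpowers_le.2 hd)
  have heq : K ⊔ zpowers d = centralizer ({d} : Set G) := by
    apply Subgroup.eq_of_le_of_card_ge hle
    rw [h36, hcard]
  have hmem : u ∈ K ⊔ zpowers d := by
    rw [heq]; exact mem_centralizer_singleton_iff.2 hu
  rw [mem_sup_comm hc2] at hmem
  obtain ⟨k, hk, w, hw, rfl⟩ := hmem
  obtain ⟨n, rfl⟩ := mem_zpowers_iff.1 hw
  refine ⟨k, hk, (n % 3).toNat, by omega, ?_⟩
  congr 1
  rw [← zpow_natCast, Int.toNat_of_nonneg (Int.emod_nonneg n (by norm_num))]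
  have := zpow_mod_orderOf d n
  rw [ho] at this
  exact this.symm

theorem K_y {k : G} (hk : k ∈ K) (h : k * y = y * k) : ∃ i < 3, k = y ^ i := by
  have h3 : y ^ 3 = 1 := by rw [pow_succ, pow_two]; exact c.F.fy.yyy
  have ho : orderOf y = 3 := orderOf_eq_prime h3 c.y1
  have h1 : (⟨k, hk⟩ : K) ∈ zpowers (⟨y, c.yK⟩ : K) :=
    A4.three_norm c.h.eK (by rw [← ho]; exact Subgroup.orderOf_mk y c.yK) (Or.inl (Subtype.ext h))
  obtain ⟨n, hn⟩ := mem_zpowers_iff.1 h1
  have hn' : y ^ n = k := congrArg Subtype.val hn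
  refine ⟨(n % 3).toNat, by omega, ?_⟩
  rw [← hn', ← zpow_natCast, Int.toNat_of_nonneg (Int.emod_nonneg n (by norm_num))]
  have := zpow_mod_orderOf y n
  rw [ho] at this
  exact this.symm

theorem d_ne {d s : G} (D : DS z (tp a f y 4) d s) : d ≠ 1 := by
  rintro rfl
  have := D.dz
  rw [mul_one, one_mul] at this
  exact c.ez this.symm

/-- `a` does not invert `d` -/
theorem j_ne {d s : G} (hd : d ∈ L) (D : DS z (tp a f y 4) d s) (h0 : (d * a) * (d * a) = 1) : False := by
  have hd1 := c.d_ne D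
  have aa := c.F.aa
  have ff := c.F.fy.ff
  have hada : a * d * a = d⁻¹ := by
    apply eq_inv_of_mul_eq_one_right
    calc d * (a * d * a) = (d * a) * (d * a) := by group
      _ = 1 := h0
  have hadia : a * d⁻¹ * a = d := by
    rw [← hada]
    calc a * (a * d * a) * a = (a * a) * d * (a * a) := by group
      _ = d := by rw [aa]; simp
  have hfd : f * d = d * f := c.fL hd
  have hcomm : (a * f * a) * d = d * (a * f * a) := by
    have h1 : (a * f * a) * d = a * (f * (a * d * a)) * a := by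
      calc (a * f * a) * d = a * f * a * d * (a * a) := by rw [aa, mul_one]
        _ = _ := by group
    have h2 : d * (a * f * a) = a * ((a * d * a) * f) * a := by
      calc d * (a * f * a) = (a * a) * d * (a * f * a) := by rw [aa, one_mul]
        _ = _ := by group
    rw [h1, h2, hada]
    have h3 : f * d⁻¹ = d⁻¹ * f := (show Commute f d from hfd).inv_right
    rw [h3]
  obtain ⟨k, hk, i, hi, hu⟩ := c.cent_d hd D.ddd hd1 hcomm
  have hkd : k * d ^ i = d ^ i * k := (show Commute k d from c.h.comm k hk d hd).pow_right i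
  have hsq : (a * f * a) * (a * f * a) = 1 := by
    calc (a * f * a) * (a * f * a) = a * f * (a * a) * f * a := by group
      _ = a * (f * f) * a := by rw [aa]; group
      _ = 1 := by rw [ff, mul_one, aa]
  rw [hu] at hsq
  have h4 : (k * k) * (d ^ i * d ^ i) = 1 := by
    calc (k * k) * (d ^ i * d ^ i) = k * (k * d ^ i) * d ^ i := by simp only [mul_assoc]
      _ = k * (d ^ i * k) * d ^ i := by rw [hkd]
      _ = k * d ^ i * (k * d ^ i) := by simp only [mul_assoc]
      _ = 1 := hsq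
  have h5 : d ^ i * d ^ i ∈ K ⊓ L := by
    refine ⟨?_, L.mul_mem (L.pow_mem hd i) (L.pow_mem hd i)⟩
    have h44 : d ^ i * d ^ i = (k * k)⁻¹ := eq_inv_of_mul_eq_one_right h4
    have : (k * k)⁻¹ ∈ K := K.inv_mem (K.mul_mem hk hk)
    rw [← h44] at this
    exact this
  rw [c.h.disj, mem_bot] at h5
  have h3 : d ^ 3 = 1 := by rw [pow_succ, pow_two]; exact D.ddd
  have ho : orderOf d = 3 := orderOf_eq_prime h3 hd1
  have h6 : d ^ (i + i) = 1 := by rw [pow_add]; exact h5
  have h7 := orderOf_dvd_of_pow_eq_one h6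
  rw [ho] at h7
  have hi0 : i = 0 := by omega
  subst hi0
  rw [pow_zero, mul_one] at hu
  -- `a f a ∈ K`
  have h8 : (a * f * a) * f ∈ K := by rw [hu]; exact K.mul_mem hk c.fK
  have h9 : ((a * f * a) * f) * ((a * f * a) * f) = z := by
    have hT : f * a * f = tp a f y 0 := by simp [tp]
    have h10 : a * tp a f y 0 = z * (tp a f y 0 * a) := c.B.pts.anti 3 0 (by decide)
    have h11 := c.F.sq0
    calc ((a * f * a) * f) * ((a * f * a) * f) = a * (f * a * f) * (a * (f * a * f)) := by group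
      _ = a * tp a f y 0 * (a * tp a f y 0) := by rw [hT]
      _ = a * tp a f y 0 * (z * (tp a f y 0 * a)) := by rw [h10]
      _ = a * (tp a f y 0 * z) * (tp a f y 0 * a) := by group
      _ = a * (z * tp a f y 0) * (tp a f y 0 * a) := by rw [c.F.zt 0]
      _ = (a * z) * (tp a f y 0 * tp a f y 0) * a := by group
      _ = z * (a * a) := by rw [h11, c.F.az]; group
      _ = z := by rw [aa, mul_one]
  have h12 : z ∈ K ⊓ L := ⟨by rw [← h9]; exact K.mul_mem h8 h8, c.zL⟩
  rw [c.h.disj, mem_bot] at h12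
  exact c.z1 h12

theorem sa3 {d s : G} (hd : d ∈ L) (hs : s ∈ L) (D : DS z (tp a f y 4) d s) {j : ℕ} (hj : j = 1 ∨ j = 2)
    (hda : (d * a) * (d * a) = y ^ j) : (s * a) * (s * a) * (s * a) = 1 := by
  have hd1 := c.d_ne D
  have aa := c.F.aa
  have ss := D.ss
  have hya : y * a = a * y := c.F.ya
  have hyd : y * d = d * y := c.yL hd
  have hys : y * s = s * y := c.yL hs
  have hada : a * d * a = d⁻¹ * y ^ j := by
    rw [← hda]; group
  have hyjd : y ^ j * d = d * y ^ j := (show Commute y d from hyd).pow_left j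
  have hsds : s * d * s = d⁻¹ := by
    apply eq_inv_of_mul_eq_one_left
    calc s * d * s * d = (s * d) * (s * d) := by group
      _ = 1 := D.sd
  obtain ⟨b, hb⟩ : ∃ b, b = s * a := ⟨_, rfl⟩
  obtain ⟨m, hm⟩ : ∃ m, m = (y ^ j)⁻¹ := ⟨_, rfl⟩
  have hyb : y * b = b * y := by rw [hb]; exact (show Commute y s from hys).mul_right hya
  have hmb : m * b = b * m := by rw [hm]; exact ((show Commute y b from hyb).pow_left j).inv_left
  have hmd : m * d = d * m := by rw [hm]; exact ((show Commute y d from hyd).pow_left j).inv_left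
  have hsi : s⁻¹ = s := inv_eq_of_mul_eq_one_left ss
  have hai : a⁻¹ = a := inv_eq_of_mul_eq_one_left aa
  have hbi : b⁻¹ = a * s := by rw [hb, mul_inv_rev, hsi, hai]
  have hdb : d * b = b * (d * m) := by
    have h1 : b⁻¹ * d * b = d * m := by
      rw [hbi, hb]
      have h2 : a * d⁻¹ * a = (a * d * a)⁻¹ := by
        rw [mul_inv_rev, mul_inv_rev, hai]; group
      calc a * s * d * (s * a) = a * (s * d * s) * a := by group
        _ = (a * d * a)⁻¹ := by rw [hsds, h2]
        _ = m * d := by rw [hada, mul_inv_rev, inv_inv, hm]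
        _ = d * m := hmd
    rw [← h1]; group
  have hm3 : m * m * m = 1 := by
    have h1 : y ^ 3 = 1 := by rw [pow_succ, pow_two]; exact c.F.fy.yyy
    rw [hm, ← mul_inv_rev, ← mul_inv_rev, ← pow_add, ← pow_add]
    have : j + (j + j) = 3 * j := by ring
    rw [this, pow_mul, h1, one_pow, inv_one]
  have hdb' : ∀ w, d * (b * w) = b * (d * (m * w)) := fun w => by rw [← mul_assoc, hdb]; simp only [mul_assoc]
  have hmb' : ∀ w, m * (b * w) = b * (m * w) := fun w => by rw [← mul_assoc, hmb, mul_assoc]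
  have hcd : (b * b * b) * d = d * (b * b * b) := by
    have h1 : d * (b * b * b) = b * b * b * (d * (m * m * m)) := by
      simp only [mul_assoc, hdb', hmb', hdb, hmb]
    rw [h1, hm3, mul_one]
  obtain ⟨k, hk, i, hi, hu⟩ := c.cent_d hd D.ddd hd1 hcd
  have hyc : y * (b * b * b) = (b * b * b) * y := by
    have h1 : Commute y b := hyb
    exact ((h1.mul_right h1).mul_right h1)
  have hky : k * y = y * k := by
    have h1 : k = (b * b * b) * (d ^ i)⁻¹ := by rw [hu]; group
    have h2 : Commute y (d ^ i)⁻¹ := ((show Commute y d from hyd).pow_right i).inv_right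
    have h3 : Commute y ((b * b * b) * (d ^ i)⁻¹) := (show Commute y (b * b * b) from hyc).mul_right h2
    rw [h1]; exact h3.symm
  obtain ⟨l, hl, hkl⟩ := c.K_y hk hky
  rw [hkl] at hu
  -- i = 0
  have hdib : ∀ n : ℕ, d ^ n * b = b * (d ^ n * m ^ n) := by
    intro n
    induction n with
    | zero => simp
    | succ n ih =>
      have h1 : m ^ n * d = d * m ^ n := (show Commute m d from hmd).pow_left n
      rw [pow_succ' d n, mul_assoc, ih, ← mul_assoc, hdb, pow_succ' m n]
      calc b * (d * m) * (d ^ n * m ^ n) = b * (d * (m * d ^ n) * m ^ n) := by group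
        _ = b * (d * (d ^ n * m) * m ^ n) := by rw [(show Commute m d from hmd).pow_right n]
        _ = b * (d * d ^ n * (m * m ^ n)) := by group
  have hi0 : i = 0 := by
    have h1 : (b * b * b) * b = b * (b * b * b) := by group
    rw [hu] at h1
    have h2 : y ^ l * d ^ i * b = b * (y ^ l * d ^ i * m ^ i) := by
      have h3 : y ^ l * b = b * y ^ l := (show Commute y b from hyb).pow_left l
      calc y ^ l * d ^ i * b = y ^ l * (d ^ i * b) := by group
        _ = (y ^ l * b) * (d ^ i * m ^ i) := by rw [hdib]; group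
        _ = _ := by rw [h3]; simp only [mul_assoc]
    rw [h2] at h1
    have h4 := mul_left_cancel h1
    have h5 : m ^ i = 1 := mul_left_cancel (a := y ^ l * d ^ i) (by rw [mul_one]; exact h4)
    have h6 : y ^ (j * i) = 1 := by
      have : (y ^ j) ^ i = (m ^ i)⁻¹ := by rw [hm, inv_pow, inv_inv]
      rw [pow_mul, this, h5, inv_one]
    have h7 : y ^ 3 = 1 := by rw [pow_succ, pow_two]; exact c.F.fy.yyy
    have h8 : orderOf y = 3 := orderOf_eq_prime h7 c.y1
    have h9 := orderOf_dvd_of_pow_eq_one h6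
    rw [h8] at h9
    rcases hj with rfl | rfl <;> omega
  rw [hi0, pow_zero, mul_one] at hu
  have hac : a * (b * b * b) * a = (b * b * b)⁻¹ := by
    rw [mul_inv_rev, mul_inv_rev, hbi, hb]
    calc a * (s * a * (s * a) * (s * a)) * a = a * s * (a * s) * (a * s) * (a * a) := by group
      _ = _ := by rw [aa, mul_one, mul_assoc]
  have hay : a * y ^ l * a = y ^ l := by
    have : y ^ l * a = a * y ^ l := (show Commute y a from hya).pow_left l
    rw [mul_assoc, this, ← mul_assoc, aa, one_mul]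
  rw [hu, hay] at hac
  have h10 : y ^ (l + l) = 1 := by
    rw [pow_add]
    nth_rewrite 1 [hac]
    simp
  have h7 : y ^ 3 = 1 := by rw [pow_succ, pow_two]; exact c.F.fy.yyy
  have h8 : orderOf y = 3 := orderOf_eq_prime h7 c.y1
  have h9 := orderOf_dvd_of_pow_eq_one h10
  rw [h8] at h9
  have : l = 0 := by omega
  rw [hb] at hu
  rw [hu, this, pow_zero]

end Ctx

end Cfsg.Agent.LE.J2U
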